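import Mathlib

/-!
Counting square roots in a 2-group `R` with a central elementary abelian subgroup `V` such that all non-identity
elements of `V` have the same number of square roots (Higman's counting argument).
-/

set_option autoImplicit false
set_option linter.unusedSectionVars false
set_option linter.unusedVariables false

namespace Cfsg.Agent.H93.ThOne

open Finset

theorem odd_dvd_two_pow {m e : ℕ} (hm : Odd m) (h : m ∣ 2 ^ e) : m = 1 := by
  obtain ⟨k, _, hk⟩ := (Nat.dvd_prime_pow Nat.prime_two).1 h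
  rcases Nat.eq_zero_or_pos k with h0 | h0
  · rw [hk, h0, pow_zero]
  · exfalso
    rw [hk] at hm
    have : Even (2 ^ k) := (Nat.even_pow.2 ⟨even_two, h0.ne'⟩)
    exact (Nat.not_even_iff_odd.2 hm) this

/-- the arithmetic -/
theorem arith {n a b k : ℕ} (hn : 1 ≤ n) (hna : n < a) (hnb : n ≤ b) (h1 : 2 ^ a = k * (2 ^ n - 1) + 2 ^ n)
    (h2 : ((2 : ℤ) ^ n - k) ^ 2 = 2 ^ a * 2 ^ b) (hk : k ≠ 2 ^ n) : a = 3 * n ∧ b = n := by
  obtain ⟨e, rfl⟩ : ∃ e, a = n + e := ⟨a - n, by omega⟩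
  have he : 1 ≤ e := by omega
  have hq2 : 2 ≤ 2 ^ n := by
    calc 2 = 2 ^ 1 := rfl
      _ ≤ 2 ^ n := Nat.pow_le_pow_right (by norm_num) hn
  have hE2 : 2 ≤ 2 ^ e := by
    calc 2 = 2 ^ 1 := rfl
      _ ≤ 2 ^ e := Nat.pow_le_pow_right (by norm_num) he
  have hq : Even (2 ^ n) := Nat.even_pow.2 ⟨even_two, by omega⟩
  have hE : Even (2 ^ e) := Nat.even_pow.2 ⟨even_two, by omega⟩
  have h3 : k * (2 ^ n - 1) = 2 ^ n * (2 ^ e - 1) := by
    rw [pow_add] at h1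
    have e0 : 2 ^ n * (2 ^ e - 1) = 2 ^ n * 2 ^ e - 2 ^ n := by rw [Nat.mul_sub, mul_one]
    rw [e0]
    omega
  have hcop : Nat.Coprime (2 ^ n) (2 ^ n - 1) := by
    have : Nat.Coprime (2 ^ n - 1 + 1) (2 ^ n - 1) := by
      rw [Nat.coprime_comm]
      exact Nat.coprime_self_add_right.2 (Nat.coprime_one_right _)
    rwa [Nat.sub_add_cancel (by omega)] at this
  have h4 : 2 ^ n ∣ k := hcop.dvd_of_dvd_mul_right (Dvd.intro _ h3.symm)
  obtain ⟨j, rfl⟩ := h4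
  have h5 : j * (2 ^ n - 1) = 2 ^ e - 1 := by
    have hpos : 0 < 2 ^ n := by positivity
    apply Nat.eq_of_mul_eq_mul_left hpos
    rw [← mul_assoc]; exact h3
  have hj1 : j ≠ 1 := by
    rintro rfl
    exact hk (by rw [mul_one])
  have hj0 : j ≠ 0 := by
    rintro rfl
    rw [zero_mul] at h5
    omega
  have hjodd : Odd j := by
    have : Odd (2 ^ e - 1) := Nat.Even.sub_odd (by omega) hE odd_one
    rw [← h5] at this
    exact (Nat.odd_mul.1 this).1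
  obtain ⟨i, rfl⟩ : ∃ i, j = i + 1 := ⟨j - 1, by omega⟩
  have hi : i ≠ 0 := by rintro rfl; exact hj1 rfl
  have h6 : i ^ 2 * 2 ^ (2 * n) = 2 ^ (n + e + b) := by
    have h7 : ((i : ℤ) ^ 2 * 2 ^ (2 * n)) = 2 ^ (n + e + b) := by
      push_cast at h2
      have e1 : ((2 : ℤ) ^ n - 2 ^ n * (i + 1)) ^ 2 = i ^ 2 * 2 ^ (2 * n) := by
        rw [mul_comm 2 n, pow_mul]; ring
      rw [← e1, h2, ← pow_add]
    exact_mod_cast h7
  have h7 : i ∣ 2 ^ (n + e + b) := ⟨i * 2 ^ (2 * n), by rw [← h6]; ring⟩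
  obtain ⟨c, _, rfl⟩ := (Nat.dvd_prime_pow Nat.prime_two).1 h7
  have hc : 1 ≤ c := by
    by_contra h0
    have : c = 0 := by omega
    subst this
    rw [pow_zero] at hjodd
    exact (Nat.not_even_iff_odd.2 hjodd) (by decide)
  have h8 : 2 * c + 2 * n = n + e + b := by
    have : 2 ^ (2 * c + 2 * n) = 2 ^ (n + e + b) := by
      rw [← h6, pow_add, ← pow_mul, mul_comm c 2]
    exact Nat.pow_right_injective (le_refl 2) this
  have h9 : 2 ^ c * 2 ^ n + 2 ^ n = 2 ^ e + 2 ^ c := by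
    have : (2 ^ c + 1) * (2 ^ n - 1) + (2 ^ c + 1) = 2 ^ e + 2 ^ c := by
      rw [h5]; omega
    have h10 : (2 ^ c + 1) * (2 ^ n - 1) + (2 ^ c + 1) = (2 ^ c + 1) * 2 ^ n := by
      calc (2 ^ c + 1) * (2 ^ n - 1) + (2 ^ c + 1) = (2 ^ c + 1) * (2 ^ n - 1 + 1) := by ring
        _ = (2 ^ c + 1) * 2 ^ n := by rw [Nat.sub_add_cancel (by omega)]
    rw [h10] at this
    rw [← this]; ring
  rcases lt_trichotomy c n with hcn | hcn | hcn
  · exfalso
    obtain ⟨d, rfl⟩ : ∃ d, n = c + d := ⟨n - c, by omega⟩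
    have hd : 1 ≤ d := by omega
    have hd2 : 2 ≤ 2 ^ d := by
      calc 2 = 2 ^ 1 := rfl
        _ ≤ 2 ^ d := Nat.pow_le_pow_right (by norm_num) hd
    have h11 : 2 ^ c * (2 ^ (c + d) + 2 ^ d - 1) = 2 ^ e := by
      have : 2 ^ c * (2 ^ (c + d) + 2 ^ d - 1) = 2 ^ c * 2 ^ (c + d) + 2 ^ (c + d) - 2 ^ c := by
        rw [Nat.mul_sub, mul_one, mul_add, ← pow_add 2 c d]
      omega
    have h12 : Odd (2 ^ (c + d) + 2 ^ d - 1) := by
      apply Nat.Even.sub_odd (by omega) _ odd_one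
      exact hq.add (Nat.even_pow.2 ⟨even_two, by omega⟩)
    have := odd_dvd_two_pow h12 (Dvd.intro_left _ h11)
    omega
  · subst hcn
    have : 2 ^ e = 2 ^ (2 * c) := by
      rw [two_mul, pow_add]; omega
    have := Nat.pow_right_injective (le_refl 2) this
    constructor <;> omega
  · exfalso
    obtain ⟨d, rfl⟩ : ∃ d, c = n + d := ⟨c - n, by omega⟩
    have hd : 1 ≤ d := by omega
    have hd2 : 2 ≤ 2 ^ d := by
      calc 2 = 2 ^ 1 := rfl
        _ ≤ 2 ^ d := Nat.pow_le_pow_right (by norm_num) hd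
    have h13 : 2 * 2 ^ d ≤ 2 ^ (n + d) := by
      rw [pow_add]; exact Nat.mul_le_mul_right _ hq2
    have h11 : 2 ^ n * (2 ^ (n + d) + 1 - 2 ^ d) = 2 ^ e := by
      have : 2 ^ n * (2 ^ (n + d) + 1 - 2 ^ d) = 2 ^ n * 2 ^ (n + d) + 2 ^ n - 2 ^ (n + d) := by
        rw [Nat.mul_sub, mul_add, mul_one, ← pow_add 2 n d]
      rw [mul_comm (2 ^ (n + d)) (2 ^ n)] at h9
      omega
    have h12 : Odd (2 ^ (n + d) + 1 - 2 ^ d) := by
      apply Nat.Odd.sub_even (by omega)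
      · exact (Nat.even_pow.2 ⟨even_two, by omega⟩ : Even (2 ^ (n + d))).add_one
      · exact Nat.even_pow.2 ⟨even_two, by omega⟩
    have := odd_dvd_two_pow h12 (Dvd.intro_left _ h11)
    omega

section
variable {R : Type*} [Group R] [Fintype R]

open Classical in
/-- the sign of an element relative to a subgroup -/
noncomputable def sg (M : Subgroup R) (x : R) : ℤ := if x ∈ M then 1 else -1

theorem sg_mul {M V : Subgroup R} (hMV : M ≤ V) (hi : M.relIndex V = 2) {a b : R} (ha : a ∈ V) (hb : b ∈ V) :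
    sg M (a * b) = sg M a * sg M b := by
  have h := Subgroup.mul_mem_iff_of_index_two (H := M.subgroupOf V) hi (a := ⟨a, ha⟩) (b := ⟨b, hb⟩)
  rw [Subgroup.mem_subgroupOf, Subgroup.mem_subgroupOf, Subgroup.mem_subgroupOf] at h
  change a * b ∈ M ↔ (a ∈ M ↔ b ∈ M) at h
  unfold sg
  by_cases h1 : a ∈ M <;> by_cases h2 : b ∈ M
  · rw [if_pos h1, if_pos h2, if_pos (h.2 (by tauto))]; norm_num
  · rw [if_pos h1, if_neg h2, if_neg (fun h3 => h2 ((h.1 h3).1 h1))]; norm_num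
  · rw [if_neg h1, if_pos h2, if_neg (fun h3 => h1 ((h.1 h3).2 h2))]; norm_num
  · rw [if_neg h1, if_neg h2, if_pos (h.2 (by tauto))]; norm_num

theorem sg_one (M : Subgroup R) : sg M 1 = 1 := if_pos M.one_mem

theorem sg_sq (M : Subgroup R) (x : R) : sg M x * sg M x = 1 := by
  unfold sg; split_ifs <;> norm_num

theorem sg_of_mem {M : Subgroup R} {x : R} (h : x ∈ M) : sg M x = 1 := if_pos h

theorem sg_of_not_mem {M : Subgroup R} {x : R} (h : x ∉ M) : sg M x = -1 := if_neg h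

/-- sum of a sign character composed with a homomorphism like map -/
theorem sum_sg_hom {M V : Subgroup R} (hMV : M ≤ V) (hi : M.relIndex V = 2) {T : Type*} [Group T] [Fintype T]
    (f : T → R) (hfV : ∀ x, f x ∈ V) (hf : ∀ x y, sg M (f (x * y)) = sg M (f x) * sg M (f y)) :
    (∀ x, f x ∈ M) ∧ (∑ x, sg M (f x)) = Fintype.card T ∨ (¬ ∀ x, f x ∈ M) ∧ (∑ x, sg M (f x)) = 0 := by
  by_cases h : ∀ x, f x ∈ M
  · left
    refine ⟨h, ?_⟩
    rw [Finset.sum_congr rfl (fun x _ => sg_of_mem (h x))]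
    simp
  · right
    refine ⟨h, ?_⟩
    push Not at h
    obtain ⟨x₀, hx₀⟩ := h
    have h1 : (∑ x, sg M (f x)) = ∑ x, sg M (f (x₀ * x)) :=
      (Fintype.sum_equiv (Equiv.mulLeft x₀) (fun x => sg M (f (x₀ * x))) (fun x => sg M (f x)) (fun x => rfl)).symm
    have h2 : (∑ x, sg M (f (x₀ * x))) = - ∑ x, sg M (f x) := by
      rw [← Finset.sum_neg_distrib]
      apply Finset.sum_congr rfl
      intro x _
      rw [hf, sg_of_not_mem hx₀, neg_one_mul]
    linarith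

/-- the radical of the form `u, r ↦ [u, r] mod M` -/
def Rad (M V : Subgroup R) (hMV : M ≤ V) (hVc : ∀ v ∈ V, ∀ r : R, v * r = r * v) (hcm : ∀ r s : R, r⁻¹ * s * r * s⁻¹ ∈ V) :
    Subgroup R where
  carrier := {u | ∀ r, r⁻¹ * u * r * u⁻¹ ∈ M}
  mul_mem' := by
    intro a b ha hb r
    have h1 := ha r
    have h2 := hb r
    have h3 := hVc _ (hcm r b) a⁻¹
    have h4 : r⁻¹ * (a * b) * r * (a * b)⁻¹ = (r⁻¹ * a * r * a⁻¹) * (r⁻¹ * b * r * b⁻¹) := by
      calc r⁻¹ * (a * b) * r * (a * b)⁻¹ = (r⁻¹ * a * r) * ((r⁻¹ * b * r * b⁻¹) * a⁻¹) := by group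
        _ = (r⁻¹ * a * r) * (a⁻¹ * (r⁻¹ * b * r * b⁻¹)) := by rw [h3]
        _ = _ := by group
    rw [h4]
    exact M.mul_mem h1 h2
  one_mem' := fun r => by
    have : r⁻¹ * 1 * r * (1 : R)⁻¹ = 1 := by group
    rw [this]; exact M.one_mem
  inv_mem' := by
    intro a ha r
    have h1 := ha r
    have h3 := hVc _ (V.inv_mem (hcm r a)) a
    have h4 : r⁻¹ * a⁻¹ * r * a⁻¹⁻¹ = (r⁻¹ * a * r * a⁻¹)⁻¹ := by
      calc r⁻¹ * a⁻¹ * r * a⁻¹⁻¹ = a⁻¹ * ((r⁻¹ * a * r * a⁻¹)⁻¹ * a) := by group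
        _ = a⁻¹ * (a * (r⁻¹ * a * r * a⁻¹)⁻¹) := by rw [h3]
        _ = _ := by group
    rw [h4]
    exact M.inv_mem h1

theorem mem_Rad {M V : Subgroup R} {hMV : M ≤ V} {hVc : ∀ v ∈ V, ∀ r : R, v * r = r * v}
    {hcm : ∀ r s : R, r⁻¹ * s * r * s⁻¹ ∈ V} {u : R} :
    u ∈ Rad M V hMV hVc hcm ↔ ∀ r, r⁻¹ * u * r * u⁻¹ ∈ M := Iff.rfl

/-- the square of the sum of the signs of the squares -/
theorem sum_sq {M V : Subgroup R} (hMV : M ≤ V) (hi : M.relIndex V = 2) (hVc : ∀ v ∈ V, ∀ r : R, v * r = r * v)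
    (hsq : ∀ r : R, r * r ∈ V) (hcm : ∀ r s : R, r⁻¹ * s * r * s⁻¹ ∈ V) :
    (∑ r : R, sg M (r * r)) ^ 2 = 0 ∨
      (∑ r : R, sg M (r * r)) ^ 2 = Nat.card R * Nat.card (Rad M V hMV hVc hcm) := by
  classical
  have h1 : (∑ r : R, sg M (r * r)) ^ 2 = ∑ u : R, sg M (u * u) * ∑ r : R, sg M (r⁻¹ * u * r * u⁻¹) := by
    rw [pow_two, Finset.sum_mul_sum]
    have e1 : ∀ r : R, (∑ u : R, sg M (r * r) * sg M (u * u)) = ∑ u : R, sg M (u * u) * sg M (r⁻¹ * u * r * u⁻¹) := by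
      intro r
      rw [← Fintype.sum_equiv (Equiv.mulLeft r) (fun u => sg M (r * r) * sg M ((r * u) * (r * u)))
        (fun u => sg M (r * r) * sg M (u * u)) (fun u => rfl)]
      apply Finset.sum_congr rfl
      intro u _
      have e2 : (r * u) * (r * u) = (r * r) * ((r⁻¹ * u * r * u⁻¹) * (u * u)) := by group
      rw [e2, sg_mul hMV hi (hsq r) (V.mul_mem (hcm r u) (hsq u)), sg_mul hMV hi (hcm r u) (hsq u), ← mul_assoc, sg_sq,
        one_mul, mul_comm]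
    rw [Finset.sum_congr rfl (fun r _ => e1 r), Finset.sum_comm]
    apply Finset.sum_congr rfl
    intro u _
    rw [Finset.mul_sum]
  have h2 : ∀ u : R, (∑ r : R, sg M (r⁻¹ * u * r * u⁻¹)) = if u ∈ Rad M V hMV hVc hcm then (Fintype.card R : ℤ) else 0 := by
    intro u
    have := sum_sg_hom hMV hi (T := R) (fun r => r⁻¹ * u * r * u⁻¹) (fun r => hcm r u) (by
      intro x y
      have e1 : (x * y)⁻¹ * u * (x * y) * u⁻¹ = (x⁻¹ * u * x * u⁻¹) * (y⁻¹ * u * y * u⁻¹) := by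
        have e2 := hVc _ (hcm x u) y
        calc (x * y)⁻¹ * u * (x * y) * u⁻¹ = y⁻¹ * ((x⁻¹ * u * x * u⁻¹) * (u * y * u⁻¹)) := by group
          _ = y⁻¹ * ((x⁻¹ * u * x * u⁻¹) * (y * (y⁻¹ * u * y * u⁻¹))) := by group
          _ = y⁻¹ * (((x⁻¹ * u * x * u⁻¹) * y) * (y⁻¹ * u * y * u⁻¹)) := by group
          _ = y⁻¹ * ((y * (x⁻¹ * u * x * u⁻¹)) * (y⁻¹ * u * y * u⁻¹)) := by rw [e2]
          _ = _ := by group
      show sg M ((x * y)⁻¹ * u * (x * y) * u⁻¹) = _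
      rw [e1, sg_mul hMV hi (hcm x u) (hcm y u)])
    rcases this with ⟨h3, h4⟩ | ⟨h3, h4⟩
    · rw [h4, if_pos (mem_Rad.2 h3)]
    · rw [h4, if_neg (fun h => h3 (mem_Rad.1 h))]
  have h3 : (∑ r : R, sg M (r * r)) ^ 2 = Fintype.card R * ∑ u : Rad M V hMV hVc hcm, sg M ((u : R) * u) := by
    rw [h1, Finset.sum_congr rfl (fun u _ => by rw [h2 u])]
    have e1 : ∀ u : R, sg M (u * u) * (if u ∈ Rad M V hMV hVc hcm then (Fintype.card R : ℤ) else 0) =
        if u ∈ Rad M V hMV hVc hcm then (Fintype.card R : ℤ) * sg M (u * u) else 0 := by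
      intro u
      split_ifs
      · ring
      · ring
    rw [Finset.sum_congr rfl (fun u _ => e1 u), ← Finset.sum_filter, ← Finset.mul_sum]
    congr 1
    rw [Finset.sum_subtype (p := fun u => u ∈ Rad M V hMV hVc hcm)]
    intro x
    simp
  rcases sum_sg_hom hMV hi (T := Rad M V hMV hVc hcm) (fun u => (u : R) * u) (fun u => hsq u) (by
    rintro ⟨x, hx⟩ ⟨y, hy⟩
    show sg M ((x * y) * (x * y)) = sg M (x * x) * sg M (y * y)
    have e2 : (x * y) * (x * y) = (x * x) * ((x⁻¹ * y * x * y⁻¹) * (y * y)) := by group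
    rw [e2, sg_mul hMV hi (hsq x) (V.mul_mem (hcm x y) (hsq y)), sg_mul hMV hi (hcm x y) (hsq y), sg_of_mem (hy x), one_mul])
    with ⟨_, h4⟩ | ⟨_, h4⟩
  · right
    rw [h3, h4, Nat.card_eq_fintype_card, Nat.card_eq_fintype_card]
  · left
    rw [h3, h4, mul_zero]

end

end Cfsg.Agent.H93.ThOne
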