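import Mathlib
import Cfsg.Agent.H93.ThOne.Count

/-!
The dichotomy `|R| = |V|^2` or `|R| = |V|^3`.
-/

set_option autoImplicit false
set_option linter.unusedSectionVars false
set_option linter.unusedVariables false

namespace Cfsg.Agent.H93.ThOne

open Finset

variable {R : Type*} [Group R] [Finite R]

theorem exists_relIndex_two {V W : Subgroup R} (hWV : W < V) (hVc : ∀ v ∈ V, ∀ w ∈ V, v * w = w * v)
    (hV2 : ∀ v ∈ V, v * v = 1) : ∃ M, W ≤ M ∧ M ≤ V ∧ M.relIndex V = 2 := by
  obtain ⟨M, hWM, hM⟩ := (Set.toFinite {M : Subgroup R | W ≤ M ∧ M < V}).exists_le_maximal (a := W) ⟨le_refl _, hWV⟩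
  refine ⟨M, hWM, hM.prop.2.le, ?_⟩
  obtain ⟨a, haV, haM⟩ := SetLike.exists_of_lt hM.prop.2
  let M' : Subgroup R :=
    { carrier := {x | x ∈ V ∧ (x ∈ M ∨ x * a ∈ M)}
      mul_mem' := by
        rintro x y ⟨hx, hx'⟩ ⟨hy, hy'⟩
        refine ⟨V.mul_mem hx hy, ?_⟩
        rcases hx' with h1 | h1 <;> rcases hy' with h2 | h2
        · left; exact M.mul_mem h1 h2
        · right; rw [mul_assoc]; exact M.mul_mem h1 h2
        · right
          have : x * y * a = (x * a) * y := by rw [mul_assoc, hVc y hy a haV, ← mul_assoc]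
          rw [this]; exact M.mul_mem h1 h2
        · left
          have : x * y = (x * a) * (y * a) := by
            calc x * y = x * (a * a) * y := by rw [hV2 a haV, mul_one]
              _ = x * a * (a * y) := by group
              _ = x * a * (y * a) := by rw [hVc y hy a haV]
          rw [this]; exact M.mul_mem h1 h2
      one_mem' := ⟨V.one_mem, Or.inl M.one_mem⟩
      inv_mem' := by
        rintro x ⟨hx, hx'⟩
        have hxi : x⁻¹ = x := inv_eq_of_mul_eq_one_left (hV2 x hx)
        rw [hxi]
        exact ⟨hx, hx'⟩ }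
  have hMM' : M < M' := by
    rw [SetLike.lt_iff_le_and_exists]
    refine ⟨fun x hx => ⟨hM.prop.2.le hx, Or.inl hx⟩, a, ⟨haV, Or.inr ?_⟩, haM⟩
    rw [hV2 a haV]; exact M.one_mem
  have hM'V : M' = V := by
    have hle : M' ≤ V := fun x hx => hx.1
    by_contra hne
    exact hMM'.not_ge (hM.le_of_ge ⟨hWM.trans hMM'.le, lt_of_le_of_ne hle hne⟩ hMM'.le)
  show (M.subgroupOf V).index = 2
  rw [Subgroup.index_eq_two_iff]
  refine ⟨⟨a, haV⟩, ?_⟩
  rintro ⟨b, hb⟩
  rw [Subgroup.mem_subgroupOf, Subgroup.mem_subgroupOf]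
  show Xor (b * a ∈ M) (b ∈ M)
  have hb' : b ∈ M' := by rw [hM'V]; exact hb
  by_cases h : b ∈ M
  · right
    refine ⟨h, fun h' => haM ?_⟩
    exact (M.mul_mem_cancel_left h).1 h'
  · left
    exact ⟨hb'.2.resolve_left h, h⟩

theorem dich {V : Subgroup R} (hVc : ∀ v ∈ V, ∀ r : R, v * r = r * v) (hV2 : ∀ v ∈ V, v * v = 1)
    (hsq : ∀ r : R, r * r ∈ V) (hcm : ∀ r s : R, r⁻¹ * s * r * s⁻¹ ∈ V) (h1 : ∀ r : R, r * r = 1 → r ∈ V)
    (hVbot : V ≠ ⊥) (hVtop : V ≠ ⊤) (k : ℕ) (hk : ∀ v ∈ V, v ≠ 1 → Nat.card {r : R // r * r = v} = k) :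
    (∀ r, r ∉ V → ∀ s, s * s = r * r → r⁻¹ * s ∈ V) ∨
    (Nat.card R = Nat.card V ^ 3 ∧ ∀ M ≤ V, M.relIndex V = 2 → ∀ u, (∀ r, r⁻¹ * u * r * u⁻¹ ∈ M) → u ∈ V) := by
  classical
  have := Fintype.ofFinite R
  by_cases hkq : k = Nat.card V
  · left
    intro r hr s hs
    have h2 : r * r ≠ 1 := fun h => hr (h1 r h)
    have h3 := hk _ (hsq r) h2
    -- the coset `r V` consists of square roots
    let f : V → {t : R // t * t = r * r} := fun v => ⟨r * v, by
      have := hVc v v.2 r
      calc r * (v : R) * (r * v) = r * ((v : R) * r) * v := by group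
        _ = r * (r * v) * v := by rw [this]
        _ = r * r * ((v : R) * v) := by group
        _ = r * r := by rw [hV2 v v.2, mul_one]⟩
    have hf : Function.Injective f := by
      intro v w hvw
      have : r * (v : R) = r * w := congrArg Subtype.val hvw
      exact Subtype.ext (mul_left_cancel this)
    have hbij : Function.Bijective f := by
      rw [Fintype.bijective_iff_injective_and_card]
      refine ⟨hf, ?_⟩
      rw [← Nat.card_eq_fintype_card, ← Nat.card_eq_fintype_card, h3, hkq]
    obtain ⟨v, hv⟩ := hbij.2 ⟨s, hs⟩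
    have : r * (v : R) = s := congrArg Subtype.val hv
    rw [← this, inv_mul_cancel_left]
    exact v.2
  · right
    set Vf : Finset R := univ.filter (· ∈ V) with hVf
    have hcard : Vf.card = Nat.card V := by
      rw [Nat.card_eq_fintype_card, ← Fintype.card_subtype]
    let c : R → ℕ := fun v => (univ.filter (fun r : R => r * r = v)).card
    have hc1 : c 1 = Nat.card V := by
      rw [← hcard]
      show (univ.filter (fun r : R => r * r = 1)).card = Vf.card
      apply congrArg
      ext r
      rw [mem_filter, mem_filter]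
      constructor
      · rintro ⟨_, h⟩; exact ⟨mem_univ _, h1 r h⟩
      · rintro ⟨_, h⟩; exact ⟨mem_univ _, hV2 r h⟩
    have hc : ∀ v ∈ V, v ≠ 1 → c v = k := by
      intro v hv hv1
      rw [← hk v hv hv1, Nat.card_eq_fintype_card, Fintype.card_subtype]
    have h1V : (1 : R) ∈ Vf := by rw [hVf, mem_filter]; exact ⟨mem_univ _, V.one_mem⟩
    have hcR : Nat.card R = k * (Nat.card V - 1) + Nat.card V := by
      rw [Nat.card_eq_fintype_card, ← Finset.card_univ, Finset.card_eq_sum_card_fiberwise (f := fun r : R => r * r) (t := Vf)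
        (fun r _ => by rw [hVf]; exact mem_coe.2 (mem_filter.2 ⟨mem_univ _, hsq r⟩))]
      rw [← Finset.add_sum_erase _ _ h1V]
      have e1 : (univ.filter (fun r : R => r * r = 1)).card = Nat.card V := hc1
      rw [e1, Finset.sum_congr rfl (g := fun _ => k), Finset.sum_const, Finset.card_erase_of_mem h1V, hcard, smul_eq_mul,
        add_comm, mul_comm]
      intro v hv
      rw [mem_erase, hVf, mem_filter] at hv
      exact hc v hv.2.2 hv.1
    have hP : IsPGroup 2 R := by
      intro r
      refine ⟨2, ?_⟩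
      have : r ^ 2 ^ 2 = (r * r) * (r * r) := by
        calc r ^ 2 ^ 2 = (r ^ 2) ^ 2 := by rw [← pow_mul]; rfl
          _ = _ := by rw [pow_two, pow_two]
      rw [this]; exact hV2 _ (hsq r)
    obtain ⟨a, ha⟩ := IsPGroup.iff_card.1 hP
    obtain ⟨n, hn⟩ := IsPGroup.iff_card.1 (hP.to_subgroup V)
    have key : ∀ M ≤ V, M.relIndex V = 2 → ∀ (hMV : M ≤ V), a = 3 * n ∧ Nat.card (Rad M V hMV hVc hcm) = Nat.card V := by
      intro M _ hi hMV
      obtain ⟨b, hb⟩ := IsPGroup.iff_card.1 (hP.to_subgroup (Rad M V hMV hVc hcm))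
      have hS : (∑ r : R, sg M (r * r)) = (Nat.card V : ℤ) - k := by
        rw [← Finset.sum_fiberwise_of_maps_to (g := fun r : R => r * r) (t := Vf)
          (fun r _ => by rw [hVf]; exact mem_filter.2 ⟨mem_univ _, hsq r⟩)]
        have e1 : ∀ v ∈ Vf, (∑ r ∈ univ.filter (fun r : R => r * r = v), sg M (r * r)) = c v * sg M v := by
          intro v _
          rw [Finset.sum_congr rfl (g := fun _ => sg M v), Finset.sum_const, nsmul_eq_mul]
          intro r hr
          rw [(mem_filter.1 hr).2]
        rw [Finset.sum_congr rfl e1, ← Finset.add_sum_erase _ _ h1V, hc1, sg_one, mul_one]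
        have e2 : (∑ v ∈ Vf.erase 1, (c v : ℤ) * sg M v) = k * ∑ v ∈ Vf.erase 1, sg M v := by
          rw [Finset.mul_sum]
          apply Finset.sum_congr rfl
          intro v hv
          rw [mem_erase, hVf, mem_filter] at hv
          rw [hc v hv.2.2 hv.1]
        have e3 : (∑ v ∈ Vf, sg M v) = 0 := by
          rcases sum_sg_hom hMV hi (T := V) (fun v => (v : R)) (fun v => v.2) (fun x y => sg_mul hMV hi x.2 y.2) with
            ⟨h3, _⟩ | ⟨_, h3⟩
          · exfalso
            have : M = V := le_antisymm hMV (fun v hv => h3 ⟨v, hv⟩)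
            rw [this, Subgroup.relIndex_self] at hi
            norm_num at hi
          · rw [← h3]
            rw [Finset.sum_subtype (p := fun v => v ∈ V)]
            intro x
            rw [hVf]; simp
        rw [← Finset.add_sum_erase _ _ h1V, sg_one] at e3
        rw [e2]
        have e4 : (∑ v ∈ Vf.erase 1, sg M v) = -1 := by linarith
        rw [e4]; ring
      have hS2 := sum_sq hMV hi hVc hsq hcm
      rw [hS] at hS2
      have hne : ((Nat.card V : ℤ) - k) ^ 2 ≠ 0 := by
        apply pow_ne_zero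
        intro h
        apply hkq
        have : (Nat.card V : ℤ) = k := by linarith
        exact_mod_cast this.symm
      have hS3 := hS2.resolve_left hne
      have hVR : V ≤ Rad M V hMV hVc hcm := by
        intro v hv r
        have : r⁻¹ * v * r * v⁻¹ = 1 := by
          rw [mul_assoc r⁻¹ v r, hVc v hv r]; group
        rw [this]; exact M.one_mem
      have hn1 : 1 ≤ n := by
        by_contra h0
        have : n = 0 := by omega
        rw [this, pow_zero] at hn
        exact hVbot (Subgroup.eq_bot_of_card_eq V hn)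
      have hna : n < a := by
        have h5 : Nat.card V < Nat.card R := by
          refine lt_of_le_of_ne (Subgroup.card_le_card_group V) ?_
          intro h
          exact hVtop (Subgroup.eq_top_of_card_eq V h)
        rw [hn, ha] at h5
        exact (Nat.pow_lt_pow_iff_right (by norm_num)).1 h5
      have hnb : n ≤ b := by
        have h5 : Nat.card V ≤ Nat.card (Rad M V hMV hVc hcm) := Subgroup.card_le_of_le hVR
        rw [hn, hb] at h5
        exact (Nat.pow_le_pow_iff_right (by norm_num)).1 h5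
      rw [ha, hn] at hcR
      rw [hn, ha, hb] at hS3
      push_cast at hS3
      obtain ⟨h6, h7⟩ := arith hn1 hna hnb hcR hS3 (by rw [← hn]; exact hkq)
      refine ⟨h6, ?_⟩
      rw [hb, hn, h7]
    constructor
    · obtain ⟨M, _, hMV, hi⟩ := exists_relIndex_two (V := V) (W := ⊥) (bot_lt_iff_ne_bot.2 hVbot) (fun v hv w _ => hVc v hv w) hV2
      have := (key M hMV hi hMV).1
      rw [ha, hn, ← pow_mul, this, mul_comm]
    · intro M hMV hi u hu
      have h2 := (key M hMV hi hMV).2
      have hVR : V ≤ Rad M V hMV hVc hcm := by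
        intro v hv r
        have : r⁻¹ * v * r * v⁻¹ = 1 := by
          rw [mul_assoc r⁻¹ v r, hVc v hv r]; group
        rw [this]; exact M.one_mem
      have h3 : V = Rad M V hMV hVc hcm := Subgroup.eq_of_le_of_card_ge hVR h2.le
      rw [h3]
      exact hu

end Cfsg.Agent.H93.ThOne
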