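import Mathlib
import Cfsg.Agent.H93.ThOne.Dich
import Cfsg.Agent.Cop.Basic

/-!
The core of Thompson's theorem on solvable groups with one class of involutions.
-/

set_option autoImplicit false
set_option linter.unusedSectionVars false
set_option linter.unusedVariables false

namespace Cfsg.Agent.H93.ThOne

open Subgroup
open scoped commutatorElement

variable {X : Type*} [Group X] [Finite X]

theorem card_mul_relIndex' {N K : Subgroup X} (h : N ≤ K) : Nat.card N * N.relIndex K = Nat.card K := by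
  have := Subgroup.relIndex_mul_relIndex ⊥ N K bot_le h
  rwa [Subgroup.relIndex_bot_left, Subgroup.relIndex_bot_left] at this

/-- the situation -/
structure Sit (R V T A H : Subgroup X) : Prop where
  VR : V ≤ R
  V2 : ∀ v ∈ V, v * v = 1
  inv : ∀ x : X, x * x = 1 → x ∈ V
  Vc : ∀ v ∈ V, ∀ r ∈ R, v * r = r * v
  sq : ∀ r ∈ R, r * r ∈ V
  cm : ∀ r ∈ R, ∀ s ∈ R, r⁻¹ * s * r * s⁻¹ ∈ V
  A2 : (Nat.card A).Coprime 2
  AR : A ≤ normalizer (R : Set X)
  AT : A ≤ normalizer (T : Set X)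
  AV : ∀ x ∈ V, ∀ y ∈ V, x ≠ 1 → y ≠ 1 → ∃ a ∈ A, a * x * a⁻¹ = y
  V4 : ∃ x ∈ V, ∃ y ∈ V, x ≠ 1 ∧ y ≠ 1 ∧ x ≠ y
  T2 : IsPGroup 2 T
  TR : T ≤ normalizer (R : Set X)
  TV : ∀ t ∈ T, ∀ v ∈ V, t * v = v * t
  H2 : (Nat.card H).Coprime 2
  HR : H ≤ normalizer (R : Set X)
  HV : ∀ h ∈ H, ∀ v ∈ V, h * v = v * h
  TH : T ≤ normalizer (H : Set X)
  RH : ⁅R, H⁆ = R
  HT : ⁅H, T⁆ = H

theorem conj_mem_of_norm {R : Subgroup X} {t r : X} (ht : t ∈ normalizer (R : Set X)) (hr : r ∈ R) : t * r * t⁻¹ ∈ R :=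
  (mem_normalizer_iff.1 ht r).1 hr

variable {R V T A H : Subgroup X}

theorem Sit.not_le (S : Sit R V T A H) : ¬ R ≤ V := by
  intro h
  have h1 : ⁅R, H⁆ = ⊥ := by
    rw [eq_bot_iff, Subgroup.commutator_le]
    intro r hr x hx
    rw [mem_bot, commutatorElement_eq_one_iff_mul_comm]
    exact (S.HV x hx r (h hr)).symm
  rw [S.RH] at h1
  obtain ⟨x, hx, _, _, hx1, _⟩ := S.V4
  have := S.VR hx
  rw [h1, mem_bot] at this
  exact hx1 this

/-- the main counting step -/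
theorem Sit.count (S : Sit R V T A H) : Nat.card R = Nat.card V ^ 3 ∧
    ∀ M ≤ V, M.relIndex V = 2 → ∀ u ∈ R, (∀ r ∈ R, r⁻¹ * u * r * u⁻¹ ∈ M) → u ∈ V := by
  obtain ⟨v₀, hv₀, _, _, hv₀1, _⟩ := S.V4
  have hkk : ∀ v ∈ V, v ≠ 1 → Nat.card {r : R // (r : X) * r = v} = Nat.card {r : R // (r : X) * r = v₀} := by
    intro v hv hv1
    obtain ⟨a, ha, hav⟩ := S.AV v₀ hv₀ v hv hv₀1 hv1
    symm
    refine Nat.card_congr ⟨fun r => ⟨⟨a * r.1 * a⁻¹, conj_mem_of_norm (S.AR ha) r.1.2⟩, ?_⟩,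
      fun r => ⟨⟨a⁻¹ * r.1 * a, ?_⟩, ?_⟩, ?_, ?_⟩
    · show a * (r.1 : X) * a⁻¹ * (a * r.1 * a⁻¹) = v
      have h0 := r.2
      calc a * (r.1 : X) * a⁻¹ * (a * r.1 * a⁻¹) = a * ((r.1 : X) * r.1) * a⁻¹ := by group
        _ = v := by rw [h0, hav]
    · have := conj_mem_of_norm (S.AR (A.inv_mem ha)) r.1.2
      rwa [inv_inv] at this
    · show a⁻¹ * (r.1 : X) * a * (a⁻¹ * r.1 * a) = v₀
      have : v₀ = a⁻¹ * v * a := by rw [← hav]; group
      have h0 := r.2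
      calc a⁻¹ * (r.1 : X) * a * (a⁻¹ * r.1 * a) = a⁻¹ * ((r.1 : X) * r.1) * a := by group
        _ = v₀ := by rw [h0, this]
    · rintro ⟨⟨r, hr⟩, h⟩
      apply Subtype.ext
      apply Subtype.ext
      show a⁻¹ * (a * r * a⁻¹) * a = r
      group
    · rintro ⟨⟨r, hr⟩, h⟩
      apply Subtype.ext
      apply Subtype.ext
      show a * (a⁻¹ * r * a) * a⁻¹ = r
      group
  have key := dich (R := R) (V := V.subgroupOf R)
    (fun v hv r => Subtype.ext (S.Vc v hv r r.2)) (fun v hv => Subtype.ext (S.V2 v hv))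
    (fun r => S.sq r r.2) (fun r s => S.cm r r.2 s s.2)
    (fun r hr => S.inv r (congrArg Subtype.val hr))
    (by
      intro h
      rw [Subgroup.subgroupOf_eq_bot] at h
      have := h.le_bot (show v₀ ∈ V ⊓ R from ⟨hv₀, S.VR hv₀⟩)
      exact hv₀1 this)
    (by
      intro h
      rw [Subgroup.subgroupOf_eq_top] at h
      exact S.not_le h)
    (Nat.card {r : R // (r : X) * r = v₀})
    (by
      rintro ⟨v, hvR⟩ hv hv1
      rw [← hkk v hv (fun h => hv1 (Subtype.ext h))]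
      apply Nat.card_congr
      refine Equiv.subtypeEquivRight (fun r => ?_)
      constructor
      · intro h; exact congrArg Subtype.val h
      · intro h; exact Subtype.ext h)
  have hcardV : Nat.card (V.subgroupOf R) = Nat.card V := Nat.card_congr (Subgroup.subgroupOfEquivOfLe S.VR).toEquiv
  rcases key with h | ⟨h1, h2⟩
  · exfalso
    apply S.not_le
    rw [← S.RH, Subgroup.commutator_le]
    intro r hr x hx
    have h3 : x * r⁻¹ * x⁻¹ ∈ R := conj_mem_of_norm (S.HR hx) (R.inv_mem hr)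
    have h4 : ⁅r, x⁆ = (r⁻¹)⁻¹ * (x * r⁻¹ * x⁻¹) := by rw [commutatorElement_def]; group
    rw [h4]
    by_cases hrV : r⁻¹ ∈ V
    · have : x * r⁻¹ = r⁻¹ * x := S.HV x hx _ hrV
      rw [this]
      have : r⁻¹⁻¹ * (r⁻¹ * x * x⁻¹) = 1 := by group
      rw [this]; exact V.one_mem
    · have := h ⟨r⁻¹, R.inv_mem hr⟩ hrV ⟨_, h3⟩ (by
        apply Subtype.ext
        show x * r⁻¹ * x⁻¹ * (x * r⁻¹ * x⁻¹) = r⁻¹ * r⁻¹
        have h5 := S.HV x hx _ (S.sq _ (R.inv_mem hr))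
        calc x * r⁻¹ * x⁻¹ * (x * r⁻¹ * x⁻¹) = (x * (r⁻¹ * r⁻¹)) * x⁻¹ := by group
          _ = ((r⁻¹ * r⁻¹) * x) * x⁻¹ := by rw [h5]
          _ = _ := by group)
      exact this
  · refine ⟨by rw [h1, hcardV], ?_⟩
    intro M hMV hM u hu hur
    refine h2 (M.subgroupOf R) (fun x hx => hMV hx) ?_ ⟨u, hu⟩ (fun r => hur r r.2)
    rw [← hM]
    exact Subgroup.relIndex_subgroupOf S.VR

/-- centralizers of elements outside `V` -/
theorem Sit.card_cent (S : Sit R V T A H) {y : X} (hy : y ∈ R) (hyV : y ∉ V) :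
    Nat.card (R ⊓ centralizer {y} : Subgroup X) = Nat.card V ^ 2 := by
  obtain ⟨h1, h2⟩ := S.count
  let f : R →* X :=
    { toFun := fun r => (r : X)⁻¹ * y * r * y⁻¹
      map_one' := by simp
      map_mul' := by
        rintro ⟨a, ha⟩ ⟨b, hb⟩
        show (a * b)⁻¹ * y * (a * b) * y⁻¹ = (a⁻¹ * y * a * y⁻¹) * (b⁻¹ * y * b * y⁻¹)
        have e2 := S.Vc _ (S.cm a ha y hy) b hb
        calc (a * b)⁻¹ * y * (a * b) * y⁻¹ = b⁻¹ * ((a⁻¹ * y * a * y⁻¹) * b) * (b⁻¹ * y * b * y⁻¹) := by group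
          _ = b⁻¹ * (b * (a⁻¹ * y * a * y⁻¹)) * (b⁻¹ * y * b * y⁻¹) := by rw [e2]
          _ = _ := by group }
  have hle : f.range ≤ V := by
    rintro _ ⟨r, rfl⟩
    exact S.cm r r.2 y hy
  have hrange : f.range = V := by
    by_contra hne
    obtain ⟨M, hM1, hM2, hM3⟩ := exists_relIndex_two (lt_of_le_of_ne hle hne)
      (fun v hv w hw => S.Vc v hv w (S.VR hw)) S.V2
    exact hyV (h2 M hM2 hM3 y hy (fun r hr => hM1 ⟨⟨r, hr⟩, rfl⟩))
  have hker : f.ker = (R ⊓ centralizer {y} : Subgroup X).subgroupOf R := by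
    ext ⟨r, hr⟩
    rw [MonoidHom.mem_ker, mem_subgroupOf]
    show r⁻¹ * y * r * y⁻¹ = 1 ↔ r ∈ R ⊓ centralizer {y}
    rw [mem_inf, mem_centralizer_singleton_iff]
    constructor
    · intro h
      refine ⟨hr, ?_⟩
      have : y * r = r * (r⁻¹ * y * r * y⁻¹) * y := by group
      rw [h, mul_one] at this
      exact this.symm
    · rintro ⟨_, h⟩
      rw [mul_assoc r⁻¹ y r, ← h]; group
  have hc := Subgroup.card_mul_index f.ker
  rw [Subgroup.index_ker, hrange, hker, Nat.card_congr (Subgroup.subgroupOfEquivOfLe (inf_le_left)).toEquiv, h1, pow_succ] at hc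
  exact Nat.eq_of_mul_eq_mul_right Nat.card_pos hc

end Cfsg.Agent.H93.ThOne
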