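import Mathlib
import Cfsg.Agent.H93.ThOne.Core
import Cfsg.Agent.H63.PLen
import Cfsg.Agent.Cop.MinAct

/-!
The core of Thompson's theorem on solvable groups with one class of involutions, second part.
-/

set_option autoImplicit false
set_option linter.unusedSectionVars false
set_option linter.unusedVariables false

namespace Cfsg.Agent.H93.ThOne

open Subgroup
open scoped commutatorElement

variable {X : Type*} [Group X] [Finite X]
variable {R V T A H : Subgroup X}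

theorem Sit.VVc (S : Sit R V T A H) {v w : X} (hv : v ∈ V) (hw : w ∈ V) : v * w = w * v := S.Vc v hv w (S.VR hw)

theorem Sit.inv_eq (S : Sit R V T A H) {v : X} (hv : v ∈ V) : v⁻¹ = v := inv_eq_of_mul_eq_one_left (S.V2 v hv)

/-- `δ t r = [r, t⁻¹]`-like element -/
def dl (t r : X) : X := r⁻¹ * (t * r * t⁻¹)

theorem dl_mul (S : Sit R V T A H) {t r s : X} (ht : t ∈ T) (hr : r ∈ R) (hs : s ∈ R) (h : dl t r ∈ V) :
    dl t (r * s) = dl t r * dl t s := by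
  have h1 := S.Vc _ h s hs
  unfold dl at *
  calc (r * s)⁻¹ * (t * (r * s) * t⁻¹) = s⁻¹ * ((r⁻¹ * (t * r * t⁻¹)) * s) * (s⁻¹ * (t * s * t⁻¹)) := by group
    _ = s⁻¹ * (s * (r⁻¹ * (t * r * t⁻¹))) * (s⁻¹ * (t * s * t⁻¹)) := by rw [h1]
    _ = _ := by group

/-- the elements moved by `t` only inside `V` -/
def EE (S : Sit R V T A H) {t : X} (ht : t ∈ T) : Subgroup X where
  carrier := {r | r ∈ R ∧ dl t r ∈ V}
  mul_mem' := by
    rintro a b ⟨ha, ha'⟩ ⟨hb, hb'⟩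
    refine ⟨R.mul_mem ha hb, ?_⟩
    rw [dl_mul S ht ha hb ha']
    exact V.mul_mem ha' hb'
  one_mem' := ⟨R.one_mem, by
    have : dl t 1 = 1 := by unfold dl; group
    rw [this]; exact V.one_mem⟩
  inv_mem' := by
    rintro a ⟨ha, ha'⟩
    refine ⟨R.inv_mem ha, ?_⟩
    have h1 := dl_mul S ht ha (R.inv_mem ha) ha'
    rw [mul_inv_cancel] at h1
    have h2 : dl t 1 = 1 := by unfold dl; group
    rw [h2] at h1
    have h3 : dl t a⁻¹ = (dl t a)⁻¹ := by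
      rw [eq_inv_iff_mul_eq_one, ← S.Vc _ ha' _ ?_, ← h1]
      unfold dl
      exact R.mul_mem (R.inv_mem (R.inv_mem ha)) (conj_mem_of_norm (S.TR ht) (R.inv_mem ha))
    rw [h3]; exact V.inv_mem ha'

theorem mem_EE {S : Sit R V T A H} {t : X} {ht : t ∈ T} {r : X} : r ∈ EE S ht ↔ r ∈ R ∧ dl t r ∈ V := Iff.rfl

theorem V_le_EE (S : Sit R V T A H) {t : X} (ht : t ∈ T) : V ≤ EE S ht := by
  intro v hv
  refine ⟨S.VR hv, ?_⟩
  have : dl t v = 1 := by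
    unfold dl
    rw [S.TV t ht v hv]; group
  rw [this]; exact V.one_mem

/-- the elements of `T` centralizing `R` -/
def T0 (R T : Subgroup X) : Subgroup X := T ⊓ centralizer (R : Set X)

theorem mem_T0 {t : X} : t ∈ T0 R T ↔ t ∈ T ∧ ∀ r ∈ R, t * r = r * t := by
  rw [T0, mem_inf, mem_centralizer_iff]
  constructor
  · rintro ⟨h1, h2⟩; exact ⟨h1, fun r hr => (h2 r hr).symm⟩
  · rintro ⟨h1, h2⟩; exact ⟨h1, fun r hr => (h2 r hr).symm⟩

/-- coprime stability -/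
theorem Sit.H_stab (S : Sit R V T A H) {g : X} (hg : g ∈ H) (h : ∀ r ∈ R, dl g r ∈ V) : ∀ r ∈ R, g * r = r * g := by
  intro r hr
  have h1 : ∀ n : ℕ, g ^ n * r * (g ^ n)⁻¹ = r * (dl g r) ^ n := by
    intro n
    induction n with
    | zero => simp
    | succ n ih =>
      have h2 : g * r * g⁻¹ = r * dl g r := by unfold dl; group
      have h3 : g * (dl g r) ^ n * g⁻¹ = (dl g r) ^ n := by
        rw [S.HV g hg _ (V.pow_mem (h r hr) n), mul_inv_cancel_right]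
      calc g ^ (n + 1) * r * (g ^ (n + 1))⁻¹ = g * (g ^ n * r * (g ^ n)⁻¹) * g⁻¹ := by rw [pow_succ']; group
        _ = (g * r * g⁻¹) * (g * (dl g r) ^ n * g⁻¹) := by rw [ih]; group
        _ = r * dl g r ^ (n + 1) := by rw [h2, h3, mul_assoc, ← pow_succ']
  have h2 := h1 (Nat.card H)
  have h3 : g ^ Nat.card H = 1 := by
    have := pow_card_eq_one' (x := (⟨g, hg⟩ : H))
    exact congrArg Subtype.val this
  rw [h3] at h2
  have h4 : dl g r ^ Nat.card H = 1 := by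
    have : (1 : X) * r * (1 : X)⁻¹ = r := by group
    rw [this] at h2
    exact (mul_eq_left.1 h2.symm)
  have h5 : dl g r = 1 := by
    have h6 : orderOf (dl g r) ∣ 2 := orderOf_dvd_of_pow_eq_one (by rw [pow_two]; exact S.V2 _ (h r hr))
    have h7 : orderOf (dl g r) ∣ Nat.card H := orderOf_dvd_of_pow_eq_one h4
    have h8 := Nat.dvd_gcd h7 h6
    rw [S.H2] at h8
    exact orderOf_eq_one_iff.1 (Nat.dvd_one.1 h8)
  unfold dl at h5
  have : g * r * g⁻¹ = r := by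
    calc g * r * g⁻¹ = r * (r⁻¹ * (g * r * g⁻¹)) := by group
      _ = r := by rw [h5, mul_one]
  calc g * r = (g * r * g⁻¹) * g := by group
    _ = r * g := by rw [this]

/-- an element of `T` trivial on `R / V` is trivial on `R` -/
theorem Sit.T_stab (S : Sit R V T A H) {t : X} (ht : t ∈ T) (h : ∀ r ∈ R, dl t r ∈ V) : t ∈ T0 R T := by
  rw [mem_T0]
  refine ⟨ht, ?_⟩
  -- commutators of `t` with `H` centralize `R`
  have h1 : ∀ x ∈ H, ∀ r ∈ R, (x * t * x⁻¹ * t⁻¹) * r = r * (x * t * x⁻¹ * t⁻¹) := by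
    intro x hx
    apply S.H_stab
    · have := conj_mem_of_norm (S.TH ht) (H.inv_mem hx)
      have h2 := H.mul_mem hx this
      have e : x * (t * x⁻¹ * t⁻¹) = x * t * x⁻¹ * t⁻¹ := by group
      rwa [e] at h2
    · intro r hr
      -- r ↦ x t x⁻¹ t⁻¹ r t x t⁻¹ x⁻¹
      have hti := T.inv_mem ht
      have hxi := H.inv_mem hx
      -- r₁ = t⁻¹ r t = r * v₁
      have hr1 : t⁻¹ * r * t ∈ R := by
        have := conj_mem_of_norm (S.TR hti) hr
        rwa [inv_inv] at this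
      have hv1 := h _ hr1
      set r1 := t⁻¹ * r * t with hr1d
      have e1 : dl t r1 = r1⁻¹ * r := by unfold dl; rw [hr1d]; group
      rw [e1] at hv1
      -- r₂ = x⁻¹ r₁ x
      have hr2 : x⁻¹ * r1 * x ∈ R := by
        have := conj_mem_of_norm (S.HR hxi) hr1
        rwa [inv_inv] at this
      have hv2 := h _ hr2
      set r2 := x⁻¹ * r1 * x with hr2d
      set v2 := dl t r2 with hv2d
      have e2 : t * r2 * t⁻¹ = r2 * v2 := by rw [hv2d]; unfold dl; group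
      have e3 : (x * t * x⁻¹ * t⁻¹) * r * (x * t * x⁻¹ * t⁻¹)⁻¹ = r1 * v2 := by
        calc (x * t * x⁻¹ * t⁻¹) * r * (x * t * x⁻¹ * t⁻¹)⁻¹ = x * (t * (x⁻¹ * (t⁻¹ * r * t) * x) * t⁻¹) * x⁻¹ := by group
          _ = x * (t * r2 * t⁻¹) * x⁻¹ := rfl
          _ = x * (r2 * v2) * x⁻¹ := by rw [e2]
          _ = (x * r2 * x⁻¹) * (x * v2 * x⁻¹) := by group
          _ = r1 * v2 := by
            rw [S.HV x hx _ hv2, mul_inv_cancel_right]
            congr 1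
            rw [hr2d]; group
      unfold dl
      rw [e3]
      have e4 : r⁻¹ * (r1 * v2) = (r1⁻¹ * r)⁻¹ * v2 := by group
      rw [e4]
      exact V.mul_mem (V.inv_mem hv1) hv2
  -- the set of fixed elements
  have h2 : ∀ x ∈ H, ∀ r ∈ R, dl t (x * r * x⁻¹) = dl t r := by
    intro x hx r hr
    have h3 : x * r * x⁻¹ ∈ R := conj_mem_of_norm (S.HR hx) hr
    have h4 := h1 x⁻¹ (H.inv_mem hx) r hr
    rw [inv_inv] at h4
    -- t x = x (x⁻¹ t x t⁻¹) t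
    have h5 : t * (x * r * x⁻¹) * t⁻¹ = x * (t * r * t⁻¹) * x⁻¹ := by
      have h6 := h1 x⁻¹ (H.inv_mem hx) (t * r * t⁻¹) (conj_mem_of_norm (S.TR ht) hr)
      rw [inv_inv] at h6
      calc t * (x * r * x⁻¹) * t⁻¹ = x * ((x⁻¹ * t * x * t⁻¹) * (t * r * t⁻¹)) * (x⁻¹ * t * x * t⁻¹)⁻¹ * x⁻¹ := by group
        _ = x * ((t * r * t⁻¹) * (x⁻¹ * t * x * t⁻¹)) * (x⁻¹ * t * x * t⁻¹)⁻¹ * x⁻¹ := by rw [h6]
        _ = _ := by group
    unfold dl
    rw [h5]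
    have h7 := S.HV x hx _ (h r hr)
    unfold dl at h7
    calc (x * r * x⁻¹)⁻¹ * (x * (t * r * t⁻¹) * x⁻¹) = x * (r⁻¹ * (t * r * t⁻¹)) * x⁻¹ := by group
      _ = r⁻¹ * (t * r * t⁻¹) := by rw [h7, mul_inv_cancel_right]
  let F : Subgroup X := R ⊓ centralizer {t}
  have hF : ⁅R, H⁆ ≤ F := by
    rw [Subgroup.commutator_le]
    intro r hr x hx
    have e1 : ⁅r, x⁆ = r * (x * r⁻¹ * x⁻¹) := by rw [commutatorElement_def]; group
    have hri := R.inv_mem hr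
    have h3 : x * r⁻¹ * x⁻¹ ∈ R := conj_mem_of_norm (S.HR hx) hri
    rw [e1]
    refine ⟨R.mul_mem hr h3, ?_⟩
    have h4 : dl t (r * (x * r⁻¹ * x⁻¹)) = 1 := by
      rw [dl_mul S ht hr h3 (h r hr), h2 x hx _ hri, ← dl_mul S ht hr hri (h r hr), mul_inv_cancel]
      unfold dl; group
    unfold dl at h4
    have h5 : t * (r * (x * r⁻¹ * x⁻¹)) * t⁻¹ = r * (x * r⁻¹ * x⁻¹) := by
      have := inv_mul_eq_one.1 h4
      exact this.symm
    show r * (x * r⁻¹ * x⁻¹) ∈ centralizer {t}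
    rw [mem_centralizer_singleton_iff]
    calc r * (x * r⁻¹ * x⁻¹) * t = (t * (r * (x * r⁻¹ * x⁻¹)) * t⁻¹) * t := by rw [h5]
      _ = _ := by group
  rw [S.RH] at hF
  intro r hr
  have h9 : r ∈ centralizer {t} := (hF hr).2
  rw [mem_centralizer_singleton_iff] at h9
  exact h9.symm

theorem Sit.T0_ne (S : Sit R V T A H) : ¬ T ≤ T0 R T := by
  intro h
  have h1 : H ≤ centralizer (R : Set X) := by
    rw [← S.HT, Subgroup.commutator_le]
    intro x hx t ht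
    rw [mem_centralizer_iff]
    intro r hr
    have h2 := (mem_T0.1 (h ht)).2
    have hxi := H.inv_mem hx
    have h3 : x⁻¹ * r * x ∈ R := by
      have := conj_mem_of_norm (S.HR hxi) hr
      rwa [inv_inv] at this
    have h4 := h2 _ h3
    have h5 := h2 _ hr
    have e : ⁅x, t⁆ = x * t * x⁻¹ * t⁻¹ := rfl
    rw [e]
    have h6 : t⁻¹ * r = r * t⁻¹ := by
      rw [inv_mul_eq_iff_eq_mul, ← mul_assoc, h5, mul_inv_cancel_right]
    calc r * (x * t * x⁻¹ * t⁻¹) = x * ((x⁻¹ * r * x) * t) * x⁻¹ * t⁻¹ := by group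
      _ = x * (t * (x⁻¹ * r * x)) * x⁻¹ * t⁻¹ := by rw [h4]
      _ = x * t * x⁻¹ * (r * t⁻¹) := by group
      _ = x * t * x⁻¹ * (t⁻¹ * r) := by rw [h6]
      _ = _ := by group
  have h2 : ⁅R, H⁆ = ⊥ := by
    rw [eq_bot_iff, Subgroup.commutator_le]
    intro r hr x hx
    rw [mem_bot, commutatorElement_eq_one_iff_mul_comm]
    exact (mem_centralizer_iff.1 (h1 hx) r hr)
  rw [S.RH] at h2
  apply S.not_le
  rw [h2]; exact bot_le

section
variable (S : Sit R V T A H) {t : X} (ht : t ∈ T) (ht2 : t * t ∈ T0 R T) (ht0 : t ∉ T0 R T)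
include ht2

theorem inv_dl {r : X} (hr : r ∈ R) : t * dl t r * t⁻¹ = (dl t r)⁻¹ := by
  have h1 := (mem_T0.1 ht2).2 r hr
  have h2 : t * (t * r * t⁻¹) * t⁻¹ = r := by
    calc t * (t * r * t⁻¹) * t⁻¹ = (t * t * r) * (t * t)⁻¹ := by group
      _ = r := by rw [h1, mul_inv_cancel_right]
  unfold dl
  calc t * (r⁻¹ * (t * r * t⁻¹)) * t⁻¹ = (t * r * t⁻¹)⁻¹ * (t * (t * r * t⁻¹) * t⁻¹) := by group
    _ = (t * r * t⁻¹)⁻¹ * r := by rw [h2]
    _ = _ := by group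

theorem dl_mem_EE {r : X} (hr : r ∈ R) : dl t r ∈ EE S ht := by
  have hR : dl t r ∈ R := R.mul_mem (R.inv_mem hr) (conj_mem_of_norm (S.TR ht) hr)
  refine ⟨hR, ?_⟩
  show (dl t r)⁻¹ * (t * dl t r * t⁻¹) ∈ V
  rw [inv_dl ht2 hr]
  exact S.sq _ (R.inv_mem hR)

omit ht2 in
theorem EE_comm_dl {u r : X} (hu : u ∈ EE S ht) (hr : r ∈ R) : u * dl t r = dl t r * u := by
  obtain ⟨huR, huV⟩ := hu
  have hk : u⁻¹ * r⁻¹ * u * r ∈ V := by
    have := S.cm u huR r⁻¹ (R.inv_mem hr)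
    rwa [inv_inv] at this
  have hkt := S.TV t ht _ hk
  set c := dl t u with hc
  set y := dl t r with hy
  have hyR : y ∈ R := R.mul_mem (R.inv_mem hr) (conj_mem_of_norm (S.TR ht) hr)
  have e1 : t * u * t⁻¹ = u * c := by rw [hc]; unfold dl; group
  have e2 : t * r * t⁻¹ = r * y := by rw [hy]; unfold dl; group
  have hcc : ∀ x ∈ R, c * x = x * c := fun x hx => S.Vc c huV x hx
  have e3 : u⁻¹ * r⁻¹ * u * r = u⁻¹ * y⁻¹ * r⁻¹ * u * r * y := by
    calc u⁻¹ * r⁻¹ * u * r = (t * (u⁻¹ * r⁻¹ * u * r)) * t⁻¹ := by rw [hkt, mul_inv_cancel_right]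
      _ = (t * u * t⁻¹)⁻¹ * (t * r * t⁻¹)⁻¹ * (t * u * t⁻¹) * (t * r * t⁻¹) := by group
      _ = (u * c)⁻¹ * (r * y)⁻¹ * (u * c) * (r * y) := by rw [e1, e2]
      _ = c⁻¹ * (u⁻¹ * y⁻¹ * r⁻¹ * u * (c * (r * y))) := by group
      _ = c⁻¹ * (u⁻¹ * y⁻¹ * r⁻¹ * u * ((r * y) * c)) := by rw [hcc _ (R.mul_mem hr hyR)]
      _ = c⁻¹ * ((u⁻¹ * y⁻¹ * r⁻¹ * u * (r * y)) * c) := by group
      _ = c⁻¹ * (c * (u⁻¹ * y⁻¹ * r⁻¹ * u * (r * y))) := by
        rw [hcc _ (R.mul_mem (R.mul_mem (R.mul_mem (R.mul_mem (R.inv_mem huR) (R.inv_mem hyR)) (R.inv_mem hr)) huR)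
          (R.mul_mem hr hyR))]
      _ = _ := by group
  -- r⁻¹ u r = y⁻¹ r⁻¹ u r y
  have e4 : y * (r⁻¹ * u * r) = (r⁻¹ * u * r) * y := by
    calc y * (r⁻¹ * u * r) = y * u * (u⁻¹ * r⁻¹ * u * r) := by group
      _ = y * u * (u⁻¹ * y⁻¹ * r⁻¹ * u * r * y) := by rw [← e3]
      _ = _ := by group
  have e5 : r⁻¹ * u * r = u * (u⁻¹ * r⁻¹ * u * r) := by group
  rw [e5] at e4
  have e6 := S.Vc _ hk y hyR
  have e7 : y * u * (u⁻¹ * r⁻¹ * u * r) = u * y * (u⁻¹ * r⁻¹ * u * r) := by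
    calc y * u * (u⁻¹ * r⁻¹ * u * r) = y * (u * (u⁻¹ * r⁻¹ * u * r)) := by group
      _ = u * (u⁻¹ * r⁻¹ * u * r) * y := e4
      _ = u * ((u⁻¹ * r⁻¹ * u * r) * y) := by group
      _ = u * (y * (u⁻¹ * r⁻¹ * u * r)) := by rw [e6]
      _ = _ := by group
  exact (mul_right_cancel e7).symm

include ht0

/-- the structure of `EE` -/
theorem EE_main : Nat.card (EE S ht) = Nat.card V ^ 2 ∧ ∀ u ∈ EE S ht, t * u * t⁻¹ = u⁻¹ := by
  classical
  obtain ⟨hcount, _⟩ := S.count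
  set q := Nat.card V with hq
  have hqpos : 0 < q := Nat.card_pos
  -- upper bound
  have hup : Nat.card (EE S ht) ≤ q ^ 2 := by
    by_cases h : ∀ r ∈ R, dl t r ∈ V
    · exact absurd (S.T_stab ht h) ht0
    · push Not at h
      obtain ⟨r, hr, hrV⟩ := h
      have hyR : dl t r ∈ R := R.mul_mem (R.inv_mem hr) (conj_mem_of_norm (S.TR ht) hr)
      rw [hq, ← S.card_cent hyR hrV]
      apply Subgroup.card_le_of_le
      intro u hu
      refine ⟨hu.1, ?_⟩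
      show u ∈ centralizer {dl t r}
      rw [mem_centralizer_singleton_iff]
      exact EE_comm_dl S ht hu hr
  have hVn : (V.subgroupOf R).Normal := by
    constructor
    rintro ⟨v, hvR⟩ hv ⟨r, hr⟩
    show r * v * r⁻¹ ∈ V
    have hv' : v ∈ V := hv
    rw [← S.Vc v hv' r hr, mul_inv_cancel_right]
    exact hv'
  let ψ : R →* R ⧸ V.subgroupOf R := MonoidHom.mk' (fun r => QuotientGroup.mk
      (⟨dl t r, R.mul_mem (R.inv_mem r.2) (conj_mem_of_norm (S.TR ht) r.2)⟩ : R)) (by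
    rintro ⟨a, ha⟩ ⟨b, hb⟩
    rw [← QuotientGroup.mk_mul, QuotientGroup.eq, mem_subgroupOf]
    show (dl t (a * b))⁻¹ * (dl t a * dl t b) ∈ V
    have hda : dl t a ∈ R := R.mul_mem (R.inv_mem ha) (conj_mem_of_norm (S.TR ht) ha)
    have hdb : dl t b ∈ R := R.mul_mem (R.inv_mem hb) (conj_mem_of_norm (S.TR ht) hb)
    have e1 : dl t (a * b) = b⁻¹ * dl t a * b * dl t b := by unfold dl; group
    rw [e1]
    have e2 : (b⁻¹ * dl t a * b * dl t b)⁻¹ * (dl t a * dl t b) = (dl t b)⁻¹ * (b⁻¹ * dl t a * b * (dl t a)⁻¹)⁻¹ * dl t b := by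
      have h3 := S.cm b hb _ hda
      have h4 := S.Vc _ (V.inv_mem h3) (dl t b) hdb
      have h5 := S.Vc _ h3 (dl t a) hda
      have h6 : (b⁻¹ * dl t a * b)⁻¹ * dl t a = (b⁻¹ * dl t a * b * (dl t a)⁻¹)⁻¹ := by
        rw [eq_comm, inv_eq_iff_eq_inv]
        calc b⁻¹ * dl t a * b * (dl t a)⁻¹ = (dl t a)⁻¹ * ((dl t a) * (b⁻¹ * dl t a * b * (dl t a)⁻¹)) := by group
          _ = (dl t a)⁻¹ * ((b⁻¹ * dl t a * b * (dl t a)⁻¹) * dl t a) := by rw [h5]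
          _ = _ := by group
      calc (b⁻¹ * dl t a * b * dl t b)⁻¹ * (dl t a * dl t b) = (dl t b)⁻¹ * ((b⁻¹ * dl t a * b)⁻¹ * dl t a) * dl t b := by
            group
        _ = _ := by rw [h6]
    rw [e2]
    have h3 := V.inv_mem (S.cm b hb _ hda)
    rw [mul_assoc, S.Vc _ h3 _ hdb, inv_mul_cancel_left]
    exact h3)
  have hψ : ∀ r : R, ψ r = QuotientGroup.mk (⟨dl t r, R.mul_mem (R.inv_mem r.2) (conj_mem_of_norm (S.TR ht) r.2)⟩ : R) :=
    fun r => rfl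
  have hker : ψ.ker = (EE S ht).subgroupOf R := by
    ext r
    rw [MonoidHom.mem_ker, hψ, QuotientGroup.eq_one_iff, mem_subgroupOf, mem_subgroupOf]
    exact ⟨fun h => ⟨r.2, h⟩, fun h => h.2⟩
  have hER : EE S ht ≤ R := fun x hx => hx.1
  have hrange : ψ.range ≤ ((EE S ht).subgroupOf R).map (QuotientGroup.mk' (V.subgroupOf R)) := by
    rintro _ ⟨r, rfl⟩
    exact ⟨⟨dl t r, R.mul_mem (R.inv_mem r.2) (conj_mem_of_norm (S.TR ht) r.2)⟩, dl_mem_EE S ht ht2 r.2, rfl⟩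
  have hc1 : Nat.card (EE S ht) * Nat.card ψ.range = q ^ 3 := by
    have hc := Subgroup.card_mul_index ψ.ker
    rw [Subgroup.index_ker, hker, Nat.card_congr (Subgroup.subgroupOfEquivOfLe hER).toEquiv, hcount] at hc
    exact hc
  have hc2 : q * Nat.card (((EE S ht).subgroupOf R).map (QuotientGroup.mk' (V.subgroupOf R)) : Subgroup _) = Nat.card (EE S ht) := by
    rw [← H63.relIndex_eq_card_map, Subgroup.relIndex_subgroupOf hER]
    exact card_mul_relIndex' (V_le_EE S ht)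
  set e := Nat.card (EE S ht) with he
  have hc3 : Nat.card ψ.range ≤ Nat.card (((EE S ht).subgroupOf R).map (QuotientGroup.mk' (V.subgroupOf R)) : Subgroup _) :=
    Subgroup.card_le_of_le hrange
  set m := Nat.card ψ.range with hm
  set m' := Nat.card (((EE S ht).subgroupOf R).map (QuotientGroup.mk' (V.subgroupOf R)) : Subgroup _) with hm'
  have h5 : q ^ 4 ≤ e ^ 2 := by
    calc q ^ 4 = q * q ^ 3 := by ring
      _ = q * (e * m) := by rw [hc1]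
      _ ≤ q * (e * m') := Nat.mul_le_mul_left _ (Nat.mul_le_mul_left _ hc3)
      _ = e * (q * m') := by ring
      _ = e ^ 2 := by rw [hc2]; ring
  have h6 : q ^ 2 ≤ e := by
    have : (q ^ 2) ^ 2 ≤ e ^ 2 := by rw [← pow_mul]; exact h5
    exact (Nat.pow_le_pow_iff_left (by norm_num)).1 this
  have h7 : e = q ^ 2 := le_antisymm hup h6
  refine ⟨h7, ?_⟩
  have h8 : m = m' := by
    rw [h7] at hc1 hc2
    have e1 : q ^ 2 * m = q ^ 2 * q := by rw [hc1]; ring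
    have e2 : q * m' = q * q := by rw [hc2]; ring
    rw [Nat.eq_of_mul_eq_mul_left (by positivity) e1, Nat.eq_of_mul_eq_mul_left hqpos e2]
  have h9 : ψ.range = ((EE S ht).subgroupOf R).map (QuotientGroup.mk' (V.subgroupOf R)) :=
    Subgroup.eq_of_le_of_card_ge hrange (by rw [← hm, ← hm', h8])
  intro u hu
  have huR := hER hu
  have h10 : (QuotientGroup.mk' (V.subgroupOf R)) ⟨u, huR⟩ ∈ ψ.range := by
    rw [h9]; exact ⟨⟨u, huR⟩, hu, rfl⟩
  obtain ⟨r, hr⟩ := h10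
  rw [hψ] at hr
  have h11 := QuotientGroup.eq.1 hr
  rw [mem_subgroupOf] at h11
  have h12 : (dl t r)⁻¹ * u ∈ V := h11
  set c := (dl t (r : X))⁻¹ * u with hc
  have hu' : u = dl t r * c := by rw [hc]; group
  have hyR : dl t (r : X) ∈ R := R.mul_mem (R.inv_mem r.2) (conj_mem_of_norm (S.TR ht) r.2)
  calc t * u * t⁻¹ = (t * dl t r * t⁻¹) * (t * c * t⁻¹) := by rw [hu']; group
    _ = (dl t r)⁻¹ * c := by rw [inv_dl ht2 r.2, S.TV t ht c h12, mul_inv_cancel_right]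
    _ = c * (dl t r)⁻¹ := (S.Vc c h12 _ (R.inv_mem hyR)).symm
    _ = c⁻¹ * (dl t r)⁻¹ := by rw [S.inv_eq h12]
    _ = u⁻¹ := by rw [hu']; group

theorem EE_abelian {u v : X} (hu : u ∈ EE S ht) (hv : v ∈ EE S ht) : u * v = v * u := by
  obtain ⟨_, h⟩ := EE_main S ht ht2 ht0
  have h1 := h _ ((EE S ht).mul_mem (EE S ht |>.inv_mem hu) ((EE S ht).inv_mem hv))
  have h2 := h _ ((EE S ht).inv_mem hu)
  have h3 := h _ ((EE S ht).inv_mem hv)
  have h4 : t * (u⁻¹ * v⁻¹) * t⁻¹ = (t * u⁻¹ * t⁻¹) * (t * v⁻¹ * t⁻¹) := by group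
  rw [h4, h2, h3, inv_inv, inv_inv, mul_inv_rev, inv_inv, inv_inv] at h1
  exact h1

theorem EE_eq_cent {u : X} (hu : u ∈ EE S ht) (huV : u ∉ V) : EE S ht = R ⊓ centralizer {u} := by
  obtain ⟨h1, h⟩ := EE_main S ht ht2 ht0
  apply Subgroup.eq_of_le_of_card_ge
  · intro v hv
    refine ⟨hv.1, ?_⟩
    show v ∈ centralizer {u}
    rw [mem_centralizer_singleton_iff]
    exact EE_abelian S ht ht2 ht0 hv hu
  · rw [h1, S.card_cent hu.1 huV]

end

theorem T0_conj (S : Sit R V T A H) {t s : X} (ht : t ∈ T) (hs : s ∈ T0 R T) : t * s * t⁻¹ ∈ T0 R T := by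
  obtain ⟨hsT, hsR⟩ := mem_T0.1 hs
  rw [mem_T0]
  refine ⟨T.mul_mem (T.mul_mem ht hsT) (T.inv_mem ht), fun r hr => ?_⟩
  have h1 : t⁻¹ * r * t ∈ R := by
    have := conj_mem_of_norm (S.TR (T.inv_mem ht)) hr
    rwa [inv_inv] at this
  have h2 := hsR _ h1
  calc t * s * t⁻¹ * r = t * (s * (t⁻¹ * r * t)) * t⁻¹ := by group
    _ = t * ((t⁻¹ * r * t) * s) * t⁻¹ := by rw [h2]
    _ = _ := by group

theorem T0_conjA (S : Sit R V T A H) {a s : X} (ha : a ∈ A) (hs : s ∈ T0 R T) : a * s * a⁻¹ ∈ T0 R T := by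
  obtain ⟨hsT, hsR⟩ := mem_T0.1 hs
  rw [mem_T0]
  refine ⟨conj_mem_of_norm (S.AT ha) hsT, fun r hr => ?_⟩
  have h1 : a⁻¹ * r * a ∈ R := by
    have := conj_mem_of_norm (S.AR (A.inv_mem ha)) hr
    rwa [inv_inv] at this
  have h2 := hsR _ h1
  calc a * s * a⁻¹ * r = a * (s * (a⁻¹ * r * a)) * a⁻¹ := by group
    _ = a * ((a⁻¹ * r * a) * s) * a⁻¹ := by rw [h2]
    _ = _ := by group

/-- a central involution modulo `T0` -/
theorem exists_z (S : Sit R V T A H) : ∃ z ∈ T, z ∉ T0 R T ∧ z * z ∈ T0 R T ∧ ∀ t ∈ T, z⁻¹ * t * z * t⁻¹ ∈ T0 R T := by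
  have hn : ((T0 R T).subgroupOf T).Normal := by
    constructor
    rintro ⟨s, hsT⟩ hs ⟨t, ht⟩
    exact T0_conj S ht hs
  have hP : IsPGroup 2 (T ⧸ (T0 R T).subgroupOf T) := S.T2.to_quotient _
  have hnt : Nontrivial (T ⧸ (T0 R T).subgroupOf T) := by
    obtain ⟨t, ht, ht0⟩ := SetLike.not_le_iff_exists.1 S.T0_ne
    refine ⟨⟨QuotientGroup.mk ⟨t, ht⟩, 1, fun h => ?_⟩⟩
    rw [QuotientGroup.eq_one_iff] at h
    exact ht0 h
  have : Fact (Nat.Prime 2) := ⟨Nat.prime_two⟩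
  have hc := hP.center_nontrivial
  have hP' : IsPGroup 2 (center (T ⧸ (T0 R T).subgroupOf T)) := hP.to_subgroup _
  obtain ⟨n, hn0, hn1⟩ := (IsPGroup.nontrivial_iff_card hP').1 hc
  obtain ⟨⟨z, hz⟩, hzo⟩ := exists_prime_orderOf_dvd_card' (G := center (T ⧸ (T0 R T).subgroupOf T)) 2 (by
    rw [hn1]; exact dvd_pow_self 2 hn0.ne')
  obtain ⟨⟨z', hz'T⟩, rfl⟩ := QuotientGroup.mk_surjective z
  refine ⟨z', hz'T, ?_, ?_, ?_⟩
  · intro h
    have : (QuotientGroup.mk (⟨z', hz'T⟩ : T) : T ⧸ (T0 R T).subgroupOf T) = 1 := (QuotientGroup.eq_one_iff _).2 h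
    have h2 : (⟨_, hz⟩ : center (T ⧸ (T0 R T).subgroupOf T)) = 1 := Subtype.ext this
    rw [h2, orderOf_one] at hzo
    norm_num at hzo
  · have h2 := pow_orderOf_eq_one (⟨_, hz⟩ : center (T ⧸ (T0 R T).subgroupOf T))
    rw [hzo] at h2
    have h3 := congrArg Subtype.val h2
    have h4 : (QuotientGroup.mk ((⟨z', hz'T⟩ : T) * ⟨z', hz'T⟩) : T ⧸ (T0 R T).subgroupOf T) = 1 := by
      rw [QuotientGroup.mk_mul, ← pow_two]; exact h3
    have h5 := (QuotientGroup.eq_one_iff _).1 h4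
    exact h5
  · intro t ht
    have h2 := mem_center_iff.1 hz (QuotientGroup.mk (⟨t, ht⟩ : T))
    have h4 : (QuotientGroup.mk ((⟨z', hz'T⟩ : T)⁻¹ * ⟨t, ht⟩ * ⟨z', hz'T⟩ * (⟨t, ht⟩ : T)⁻¹) : T ⧸ (T0 R T).subgroupOf T) = 1 := by
      rw [QuotientGroup.mk_mul, QuotientGroup.mk_mul, QuotientGroup.mk_mul, QuotientGroup.mk_inv, QuotientGroup.mk_inv]
      rw [mul_assoc _⁻¹ _ _, h2, inv_mul_cancel_left, mul_inv_cancel]
    have h5 := (QuotientGroup.eq_one_iff _).1 h4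
    exact h5

/-- uniqueness of the involution modulo `T0` -/
theorem uniq (S : Sit R V T A H) {z t : X} (hz : z ∈ T) (hz0 : z ∉ T0 R T) (hz2 : z * z ∈ T0 R T)
    (hzc : ∀ t ∈ T, z⁻¹ * t * z * t⁻¹ ∈ T0 R T) (ht : t ∈ T) (ht0 : t ∉ T0 R T) (ht2 : t * t ∈ T0 R T) :
    z⁻¹ * t ∈ T0 R T := by
  by_contra hcon
  -- the product
  have hw : z * t ∈ T := T.mul_mem hz ht
  have hw0 : z * t ∉ T0 R T := by
    intro h
    apply hcon
    have e : z⁻¹ * t = (z * z)⁻¹ * (z * t) := by group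
    rw [e]
    exact (T0 R T).mul_mem ((T0 R T).inv_mem hz2) h
  have hw2 : (z * t) * (z * t) ∈ T0 R T := by
    have e : (z * t) * (z * t) = (z * z) * ((z⁻¹ * t * z * t⁻¹) * (t * t)) := by group
    rw [e]
    exact (T0 R T).mul_mem hz2 ((T0 R T).mul_mem (hzc t ht) ht2)
  obtain ⟨hcz, hiz⟩ := EE_main S hz hz2 hz0
  obtain ⟨hct, hit⟩ := EE_main S ht ht2 ht0
  obtain ⟨hcw, hiw⟩ := EE_main S hw hw2 hw0
  -- general statement
  have gen : ∀ (s : X) (hs : s ∈ T) (hs2 : s * s ∈ T0 R T) (hs0 : s ∉ T0 R T), EE S hz = EE S hs := by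
    intro s hs hs2 hs0
    have hcomm : ∀ r ∈ R, z * (s * r * s⁻¹) * z⁻¹ = s * (z * r * z⁻¹) * s⁻¹ := by
      intro r hr
      have h1 := (mem_T0.1 (hzc s hs)).2 (s * (z * (z⁻¹ * r * z) * z⁻¹) * s⁻¹)
        (by
          have : s * (z * (z⁻¹ * r * z) * z⁻¹) * s⁻¹ = s * r * s⁻¹ := by group
          rw [this]; exact conj_mem_of_norm (S.TR hs) hr)
      -- s z = z (z⁻¹ s z s⁻¹) s
      have h2 : s * (z * r * z⁻¹) * s⁻¹ = z * ((z⁻¹ * s * z * s⁻¹) * (s * r * s⁻¹)) * (z⁻¹ * s * z * s⁻¹)⁻¹ * z⁻¹ := by group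
      have h3 := (mem_T0.1 (hzc s hs)).2 (s * r * s⁻¹) (conj_mem_of_norm (S.TR hs) hr)
      rw [h2, h3]; group
    have hinv : ∀ u ∈ EE S hz, s * u * s⁻¹ ∈ EE S hz := by
      rintro u ⟨huR, huV⟩
      refine ⟨conj_mem_of_norm (S.TR hs) huR, ?_⟩
      show (s * u * s⁻¹)⁻¹ * (z * (s * u * s⁻¹) * z⁻¹) ∈ V
      rw [hcomm u huR]
      have e : (s * u * s⁻¹)⁻¹ * (s * (z * u * z⁻¹) * s⁻¹) = s * (dl z u) * s⁻¹ := by unfold dl; group
      rw [e, S.TV s hs _ huV, mul_inv_cancel_right]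
      exact huV
    -- an element outside V
    have hex : ∃ u₀ ∈ EE S hz, u₀ ∉ V := by
      by_contra hc
      push Not at hc
      have h1 : Nat.card (EE S hz) ≤ Nat.card V := Subgroup.card_le_of_le hc
      rw [hcz] at h1
      have h2 : 1 < Nat.card V := by
        obtain ⟨x, hx, _, _, hx1, _⟩ := S.V4
        exact (Subgroup.one_lt_card_iff_ne_bot V).2 (fun h => hx1 (by rw [h, mem_bot] at hx; exact hx))
      nlinarith
    obtain ⟨u₀, hu₀, hu₀V⟩ := hex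
    have hex2 : ∃ u ∈ EE S hz, u ∉ V ∧ u ∈ EE S hs := by
      have hu₁ := hinv u₀ hu₀
      set u₁ := s * u₀ * s⁻¹ with hu₁d
      have hab := EE_abelian S hz hz2 hz0 hu₀ hu₁
      have hs2' : s * u₁ * s⁻¹ = u₀ := by
        have h1 := (mem_T0.1 hs2).2 u₀ hu₀.1
        calc s * u₁ * s⁻¹ = (s * s * u₀) * (s * s)⁻¹ := by rw [hu₁d]; group
          _ = u₀ := by rw [h1, mul_inv_cancel_right]
      by_cases h : u₀ * u₁ ∈ V
      · refine ⟨u₀, hu₀, hu₀V, hu₀.1, ?_⟩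
        show u₀⁻¹ * u₁ ∈ V
        have e : u₀⁻¹ * u₁ = (u₀⁻¹ * u₀⁻¹) * (u₀ * u₁) := by group
        rw [e]
        exact V.mul_mem (S.sq _ (R.inv_mem hu₀.1)) h
      · refine ⟨u₀ * u₁, (EE S hz).mul_mem hu₀ hu₁, h, R.mul_mem hu₀.1 hu₁.1, ?_⟩
        show (u₀ * u₁)⁻¹ * (s * (u₀ * u₁) * s⁻¹) ∈ V
        have e : s * (u₀ * u₁) * s⁻¹ = (s * u₀ * s⁻¹) * (s * u₁ * s⁻¹) := by group
        rw [e, hs2', ← hu₁d, ← hab, inv_mul_cancel]
        exact V.one_mem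
    obtain ⟨u, hu, huV, hus⟩ := hex2
    rw [EE_eq_cent S hz hz2 hz0 hu huV, EE_eq_cent S hs hs2 hs0 hus huV]
  have h1 := gen t ht ht2 ht0
  have h2 := gen (z * t) hw hw2 hw0
  have hex : ∃ u₀ ∈ EE S hz, u₀ ∉ V := by
    by_contra hc
    push Not at hc
    have h1 : Nat.card (EE S hz) ≤ Nat.card V := Subgroup.card_le_of_le hc
    rw [hcz] at h1
    have h2 : 1 < Nat.card V := by
      obtain ⟨x, hx, _, _, hx1, _⟩ := S.V4
      exact (Subgroup.one_lt_card_iff_ne_bot V).2 (fun h => hx1 (by rw [h, mem_bot] at hx; exact hx))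
    nlinarith
  obtain ⟨u, hu, huV⟩ := hex
  have h3 := hiz u hu
  have h3' := hiz u⁻¹ ((EE S hz).inv_mem hu)
  have h4 := hit u (by rw [← h1]; exact hu)
  have h5 := hiw u (by rw [← h2]; exact hu)
  have h6 : z * t * u * (z * t)⁻¹ = z * (t * u * t⁻¹) * z⁻¹ := by group
  rw [h6, h4, h3', inv_inv] at h5
  apply huV
  apply S.inv
  calc u * u = u * u⁻¹ := by rw [← h5]
    _ = 1 := mul_inv_cancel u

theorem Sit.false (S : Sit R V T A H) : False := by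
  obtain ⟨z, hz, hz0, hz2, hzc⟩ := exists_z S
  have hA : ∀ a ∈ A, a * z * a⁻¹ * z⁻¹ ∈ T0 R T := by
    intro a ha
    have h1 : a * z * a⁻¹ ∈ T := conj_mem_of_norm (S.AT ha) hz
    have h2 : a * z * a⁻¹ ∉ T0 R T := by
      intro h
      apply hz0
      have := T0_conjA S (A.inv_mem ha) h
      have e : a⁻¹ * (a * z * a⁻¹) * a⁻¹⁻¹ = z := by group
      rwa [e] at this
    have h3 : (a * z * a⁻¹) * (a * z * a⁻¹) ∈ T0 R T := by
      have e : (a * z * a⁻¹) * (a * z * a⁻¹) = a * (z * z) * a⁻¹ := by group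
      rw [e]; exact T0_conjA S ha hz2
    have h4 := uniq S hz hz0 hz2 hzc h1 h2 h3
    have h5 := T0_conj S hz h4
    have e : z * (z⁻¹ * (a * z * a⁻¹)) * z⁻¹ = a * z * a⁻¹ * z⁻¹ := by group
    rwa [e] at h5
  have : Fact (Nat.Prime 2) := ⟨Nat.prime_two⟩
  have hcop : (Nat.card A).Coprime (Nat.card T) := by
    obtain ⟨n, hn⟩ := IsPGroup.iff_card.1 S.T2
    rw [hn]
    exact Nat.Coprime.pow_right n S.A2
  have hsolv : Group.IsSolvable T := by
    have := S.T2.isNilpotent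
    infer_instance
  obtain ⟨c, hc, hc2⟩ := Cop.fixed_points_quotient A T S.AT hcop (Or.inr hsolv) (T0 R T) inf_le_left
    (Cop.normalizer_le_of_forall (fun b hb x hx => T0_conj S hb hx)) (Cop.normalizer_le_of_forall (fun b hb x hx => T0_conjA S hb hx))
    z hz hA
  obtain ⟨hcT, hcA⟩ := hc
  have hcA' := mem_centralizer_iff.1 hcA
  have hc1 : c ≠ 1 := by
    rintro rfl
    apply hz0
    rw [mul_one] at hc2
    have := (T0 R T).inv_mem hc2
    rwa [inv_inv] at this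
  -- an involution among the powers of `c`
  have hinv : ∃ x : X, x ≠ 1 ∧ x * x = 1 ∧ ∀ a ∈ A, a * x = x * a := by
    obtain ⟨k, hk⟩ := S.T2 ⟨c, hcT⟩
    have hk' : c ^ 2 ^ k = 1 := congrArg Subtype.val hk
    classical
    have hex : ∃ k, c ^ 2 ^ k = 1 := ⟨k, hk'⟩
    have h1 := Nat.find_spec hex
    set m := Nat.find hex with hm
    have hm0 : m ≠ 0 := by
      intro h
      rw [h, pow_zero, pow_one] at h1
      exact hc1 h1
    obtain ⟨l, hl⟩ := Nat.exists_eq_succ_of_ne_zero hm0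
    refine ⟨c ^ 2 ^ l, Nat.find_min hex (by omega), ?_, ?_⟩
    · rw [← pow_add, ← two_mul, ← pow_succ', ← Nat.succ_eq_add_one, ← hl]; exact h1
    · intro a ha
      have h2 : Commute a c := hcA' a ha
      exact h2.pow_right _
  obtain ⟨x, hx1, hx2, hxA⟩ := hinv
  have hxV := S.inv x hx2
  have hex : ∃ y ∈ V, y ≠ 1 ∧ y ≠ x := by
    obtain ⟨a, ha, b, hb, ha1, hb1, hab⟩ := S.V4
    by_cases h : a = x
    · exact ⟨b, hb, hb1, fun h' => hab (by rw [h, h'])⟩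
    · exact ⟨a, ha, ha1, h⟩
  obtain ⟨y, hy, hy1, hyx⟩ := hex
  obtain ⟨a, ha, hay⟩ := S.AV x hxV y hy hx1 hy1
  rw [hxA a ha, mul_inv_cancel_right] at hay
  exact hyx hay.symm

end Cfsg.Agent.H93.ThOne
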