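import Mathlib
import Cfsg.Prelude.Def_Local
import Cfsg.Agent.H93.ThOne.Core2
import Cfsg.Agent.H34.ClassTwo

/-!
Thompson's theorem on solvable groups with one class of involutions: the reduction.
-/

set_option autoImplicit false
set_option linter.unusedSectionVars false
set_option linter.unusedVariables false

namespace Cfsg.Agent.H93.ThOne

open Subgroup Cfsg
open scoped commutatorElement

universe u

/-- all involutions are conjugate -/
def HConj (G : Type*) [Group G] : Prop := ∀ x y : G, x ≠ 1 → x * x = 1 → y ≠ 1 → y * y = 1 → ∃ g, g * x * g⁻¹ = y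

/-- there are two distinct commuting involutions -/
def HTwo (G : Type*) [Group G] : Prop := ∃ x y : G, x ≠ 1 ∧ y ≠ 1 ∧ x ≠ y ∧ x * x = 1 ∧ y * y = 1 ∧ x * y = y * x

/-- 2-length at most one -/
def Concl (G : Type*) [Group G] : Prop := ∃ K L : Subgroup G, K.Normal ∧ L.Normal ∧ K ≤ L ∧ (Nat.card K).Coprime 2 ∧
  (∃ e, K.relIndex L = 2 ^ e) ∧ L.index.Coprime 2

theorem eq_one_of_odd {G : Type*} [Group G] {N : Subgroup G} (hN : (Nat.card N).Coprime 2) {x : G} (hx : x ∈ N)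
    (h : x * x = 1) : x = 1 := by
  have h1 : orderOf x ∣ 2 := orderOf_dvd_of_pow_eq_one (by rw [pow_two]; exact h)
  have h2 : orderOf x ∣ Nat.card N := Subgroup.orderOf_dvd_natCard N hx
  have h8 := Nat.dvd_gcd h2 h1
  rw [hN] at h8
  exact orderOf_eq_one_iff.1 (Nat.dvd_one.1 h8)

theorem hconj_quot {G : Type*} [Group G] [Finite G] (N : Subgroup G) [N.Normal] (hN : (Nat.card N).Coprime 2) (h : HConj G) :
    HConj (G ⧸ N) := by
  have lift : ∀ x : G ⧸ N, x ≠ 1 → x * x = 1 → ∃ g : G, g ≠ 1 ∧ g * g = 1 ∧ (g : G ⧸ N) = x := by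
    intro x hx1 hx2
    obtain ⟨g, rfl⟩ := QuotientGroup.mk_surjective x
    have hg2 : g * g ∈ N := by
      rw [← QuotientGroup.eq_one_iff, QuotientGroup.mk_mul]; exact hx2
    have hm : (g * g) ^ Nat.card N = 1 := by
      have := pow_card_eq_one' (x := (⟨g * g, hg2⟩ : N))
      exact congrArg Subtype.val this
    have hodd : Odd (Nat.card N) := Nat.coprime_two_right.1 hN
    have e1 : ((g ^ Nat.card N : G) : G ⧸ N) = (g : G ⧸ N) := by
      obtain ⟨k, hk⟩ := hodd
      rw [hk, pow_succ, pow_mul, QuotientGroup.mk_mul, QuotientGroup.mk_pow, QuotientGroup.mk_pow, pow_two, hx2, one_pow,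
        one_mul]
    refine ⟨g ^ Nat.card N, ?_, ?_, e1⟩
    · intro h1
      rw [h1] at e1
      exact hx1 e1.symm
    · rw [← (Commute.refl g).mul_pow]; exact hm
  intro x y hx1 hx2 hy1 hy2
  obtain ⟨a, ha1, ha2, rfl⟩ := lift x hx1 hx2
  obtain ⟨b, hb1, hb2, rfl⟩ := lift y hy1 hy2
  obtain ⟨g, hg⟩ := h a b ha1 ha2 hb1 hb2
  exact ⟨(g : G ⧸ N), by rw [← hg]; rfl⟩

theorem htwo_quot {G : Type*} [Group G] [Finite G] (N : Subgroup G) [N.Normal] (hN : (Nat.card N).Coprime 2) (h : HTwo G) :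
    HTwo (G ⧸ N) := by
  obtain ⟨x, y, hx1, hy1, hxy, hx2, hy2, hc⟩ := h
  refine ⟨(x : G ⧸ N), (y : G ⧸ N), ?_, ?_, ?_, ?_, ?_, ?_⟩
  · intro h
    rw [QuotientGroup.eq_one_iff] at h
    exact hx1 (eq_one_of_odd hN h hx2)
  · intro h
    rw [QuotientGroup.eq_one_iff] at h
    exact hy1 (eq_one_of_odd hN h hy2)
  · intro h
    rw [QuotientGroup.eq] at h
    have hxi : x⁻¹ = x := inv_eq_of_mul_eq_one_left hx2
    rw [hxi] at h
    have h2 : (x * y) * (x * y) = 1 := by
      calc (x * y) * (x * y) = x * (y * x) * y := by group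
        _ = x * (x * y) * y := by rw [hc]
        _ = (x * x) * (y * y) := by group
        _ = 1 := by rw [hx2, hy2, one_mul]
    have h3 := eq_one_of_odd hN h h2
    apply hxy
    have := mul_eq_one_iff_eq_inv.1 h3
    rw [this]
    exact inv_eq_of_mul_eq_one_left hy2
  · rw [← QuotientGroup.mk_mul, hx2]; rfl
  · rw [← QuotientGroup.mk_mul, hy2]; rfl
  · rw [← QuotientGroup.mk_mul, hc, QuotientGroup.mk_mul]

theorem concl_of_quot {G : Type*} [Group G] [Finite G] (N : Subgroup G) [hn : N.Normal] (hN : (Nat.card N).Coprime 2)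
    (h : Concl (G ⧸ N)) : Concl G := by
  obtain ⟨K, L, hK, hL, hKL, hK2, ⟨e, he⟩, hL2⟩ := h
  refine ⟨K.comap (QuotientGroup.mk' N), L.comap (QuotientGroup.mk' N), hK.comap _, hL.comap _, comap_mono hKL, ?_, ⟨e, ?_⟩, ?_⟩
  · have h1 := card_mul_relIndex' (H63.le_comap_mk' N K)
    rw [H63.relIndex_comap_mk'] at h1
    rw [← h1]
    exact Nat.Coprime.mul_left hN hK2
  · rw [Subgroup.relIndex_comap, map_comap_eq_self_of_surjective (QuotientGroup.mk'_surjective N), he]
  · rw [Subgroup.index_comap_of_surjective _ (QuotientGroup.mk'_surjective N)]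
    exact hL2

/-- Schur-Zassenhaus, relative form -/
theorem exists_compl {X : Type*} [Group X] [Finite X] {Q L : Subgroup X} (hQL : Q ≤ L) (hLQ : L ≤ normalizer (Q : Set X))
    (hcop : (Nat.card Q).Coprime (Q.relIndex L)) :
    ∃ H ≤ L, Q ⊓ H = ⊥ ∧ (∀ l ∈ L, ∃ q ∈ Q, ∃ h ∈ H, l = q * h) ∧ Nat.card Q * Nat.card H = Nat.card L ∧
      Nat.card H = Q.relIndex L := by
  have hn : (Q.subgroupOf L).Normal := normal_subgroupOf_of_le_normalizer hLQ
  have hcard : Nat.card (Q.subgroupOf L) = Nat.card Q := Nat.card_congr (Subgroup.subgroupOfEquivOfLe hQL).toEquiv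
  obtain ⟨H', hH'⟩ := exists_right_complement'_of_coprime (N := Q.subgroupOf L) (by rw [hcard]; exact hcop)
  have hH'c : Nat.card (H'.map L.subtype) = Nat.card H' := Cop.card_map_subtype H'
  have h1 := hH'.card_mul_card
  rw [hcard] at h1
  have h2 := card_mul_relIndex' hQL
  refine ⟨H'.map L.subtype, map_subtype_le H', ?_, ?_, by rw [hH'c]; exact h1, ?_⟩
  · rw [eq_bot_iff]
    rintro x ⟨hx, ⟨y, hy, rfl⟩⟩
    have h3 : y ∈ (Q.subgroupOf L) ⊓ H' := ⟨hx, hy⟩
    have h4 : y = 1 := by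
      have := hH'.disjoint.le_bot h3
      exact mem_bot.1 this
    rw [h4]; exact one_mem _
  · intro l hl
    have h3 := hH'.sup_eq_top
    have h4 : (⟨l, hl⟩ : L) ∈ (Q.subgroupOf L) ⊔ H' := by rw [h3]; trivial
    rw [Subgroup.mem_sup_of_normal_left] at h4
    obtain ⟨q, hq, h, hh, hqh⟩ := h4
    exact ⟨q, hq, h, ⟨h, hh, rfl⟩, (congrArg Subtype.val hqh).symm⟩
  · rw [hH'c]
    have h5 : Nat.card Q * Nat.card H' = Nat.card Q * Q.relIndex L := by rw [h1, h2]
    exact Nat.eq_of_mul_eq_mul_left Nat.card_pos h5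

/-- a 2-group acting on the involutions of a normal subgroup has a fixed point -/
theorem exists_fixed {X : Type*} [Group X] [Finite X] {T V : Subgroup X} (hT : IsPGroup 2 T) (hTV : T ≤ normalizer (V : Set X))
    (hV : IsPGroup 2 V) (hne : V ≠ ⊥) : ∃ v ∈ V, v ≠ 1 ∧ ∀ t ∈ T, t * v = v * t := by
  classical
  have : Fact (Nat.Prime 2) := ⟨Nat.prime_two⟩
  let act : MulAction T {v : X // v ∈ V ∧ v ≠ 1} :=
    { smul := fun t v => ⟨t * v.1 * (t : X)⁻¹, conj_mem_of_norm (hTV t.2) v.2.1, fun h => v.2.2 (by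
        have h1 : v.1 = (t : X)⁻¹ * (t * v.1 * (t : X)⁻¹) * t := by group
        rw [h1, h]; group)⟩
      one_smul := fun v => Subtype.ext (by show (1 : X) * v.1 * (1 : X)⁻¹ = v.1; group)
      mul_smul := fun a b v => Subtype.ext (by
        show ((a : X) * b) * v.1 * ((a : X) * b)⁻¹ = a * (b * v.1 * (b : X)⁻¹) * (a : X)⁻¹
        group) }
  have hcard : ¬ 2 ∣ Nat.card {v : X // v ∈ V ∧ v ≠ 1} := by
    have h1 : Nat.card V = Nat.card {v : X // v ∈ V ∧ v ≠ 1} + 1 := by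
      have e1 : Nat.card {v : X // v ∈ V ∧ v ≠ 1} = Nat.card {v : V // v ≠ 1} :=
        Nat.card_congr ⟨fun v => ⟨⟨v.1, v.2.1⟩, fun h => v.2.2 (congrArg Subtype.val h)⟩,
          fun v => ⟨v.1.1, v.1.2, fun h => v.2 (Subtype.ext h)⟩, fun v => rfl, fun v => rfl⟩
      rw [e1]
      have := Fintype.ofFinite V
      rw [Nat.card_eq_fintype_card, Nat.card_eq_fintype_card, Fintype.card_subtype_compl, Fintype.card_subtype_eq]
      have : 0 < Fintype.card V := Fintype.card_pos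
      omega
    have h2 : 2 ∣ Nat.card V := by
      have : Nontrivial V := (Subgroup.nontrivial_iff_ne_bot V).2 hne
      obtain ⟨n, hn0, hn⟩ := (IsPGroup.nontrivial_iff_card hV).1 ‹_›
      rw [hn]; exact dvd_pow_self 2 hn0.ne'
    omega
  obtain ⟨⟨v, hv, hv1⟩, hfix⟩ := hT.nonempty_fixed_point_of_prime_not_dvd_card _ hcard
  refine ⟨v, hv, hv1, fun t ht => ?_⟩
  have h3 := congrArg Subtype.val (hfix ⟨t, ht⟩)
  have h4 : t * v * t⁻¹ = v := h3
  calc t * v = (t * v * t⁻¹) * t := by group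
    _ = v * t := by rw [h4]

/-- a nontrivial 2-subgroup contains an involution -/
theorem exists_involution {X : Type*} [Group X] [Finite X] {T : Subgroup X} (hT : IsPGroup 2 T) (hne : T ≠ ⊥) :
    ∃ x ∈ T, x ≠ 1 ∧ x * x = 1 := by
  have : Fact (Nat.Prime 2) := ⟨Nat.prime_two⟩
  have : Nontrivial T := (Subgroup.nontrivial_iff_ne_bot T).2 hne
  obtain ⟨n, hn0, hn⟩ := (IsPGroup.nontrivial_iff_card hT).1 ‹_›
  obtain ⟨x, hx⟩ := exists_prime_orderOf_dvd_card' (G := T) 2 (by rw [hn]; exact dvd_pow_self 2 hn0.ne')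
  refine ⟨x, x.2, ?_, ?_⟩
  · intro h
    have : x = 1 := Subtype.ext h
    rw [this, orderOf_one] at hx
    norm_num at hx
  · have := pow_orderOf_eq_one x
    rw [hx, pow_two] at this
    exact congrArg Subtype.val this

/-- `C(O_{2'}) ≤ O_{2'}` if `O_2 = 1` -/
theorem centralizer_pPrimeCore_two_le {G : Type u} [Group G] [Finite G] [Group.IsSolvable G]
    (h : pCore 2 G = ⊥) : Subgroup.centralizer (pPrimeCore 2 G : Set G) ≤ pPrimeCore 2 G := by
  have hF : fittingSubgroup G ≤ pPrimeCore 2 G := by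
    rw [Cfsg.Agent.Solv.fitting_eq_iSup_pCore]
    apply iSup_le
    intro p
    by_cases hp : (p : ℕ) = 2
    · rw [hp, h]; exact bot_le
    · have : Fact (Nat.Prime (p : ℕ)) := ⟨p.2⟩
      apply Cfsg.Agent.Solv.le_pPrimeCore inferInstance
      obtain ⟨n, hn⟩ := IsPGroup.iff_card.mp (Cfsg.Agent.Solv.pCore_isPGroup (G := G) (p : ℕ))
      rw [hn]
      exact Nat.Coprime.pow_left _ ((Nat.coprime_primes p.2 Nat.prime_two).mpr hp)
  have h1 := Cfsg.Agent.Solv.centralizer_fitting_le (G := G)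
  exact (Subgroup.centralizer_le hF).trans (h1.trans hF)

end Cfsg.Agent.H93.ThOne
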